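import Mathlib
import Cfsg.Agent.Lib.helper18.Jordan
set_option autoImplicit false
namespace Cfsg.Agent.Lib.helper18.Jordan
open Matrix

variable {F : Type*} [Field F] {n : ℕ}

/-- the endomorphism `g - 1`. -/
noncomputable def nilp (g : GL (Fin n) F) : Module.End F (Fin n → F) :=
  Matrix.toLin' ((g : Matrix (Fin n) (Fin n) F) - 1)

theorem nilp_pow (g : GL (Fin n) F) (k : ℕ) :
    nilp g ^ k = Matrix.toLin' (((g : Matrix (Fin n) (Fin n) F) - 1) ^ k) := by
  induction k with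
  | zero => rw [pow_zero, pow_zero, Matrix.toLin'_one]; rfl
  | succ k ih => rw [pow_succ, pow_succ, ih, Matrix.toLin'_mul]; rfl

theorem nilp_pow_eq_zero_iff (g : GL (Fin n) F) (k : ℕ) :
    nilp g ^ k = 0 ↔ ((g : Matrix (Fin n) (Fin n) F) - 1) ^ k = 0 := by
  rw [nilp_pow]
  constructor
  · intro h
    apply Matrix.toLin'.injective
    rw [h, map_zero]
  · intro h
    rw [h, map_zero]

theorem sub_one_pow_char (p : ℕ) [Fact p.Prime] [CharP F p] (g : GL (Fin n) F) (k : ℕ) :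
    ((g : Matrix (Fin n) (Fin n) F) - 1) ^ p ^ k = ((g ^ p ^ k : GL (Fin n) F) : Matrix (Fin n) (Fin n) F) - 1 := by
  rcases Nat.eq_zero_or_pos n with rfl | hn
  · exact Subsingleton.elim _ _
  · have : Nonempty (Fin n) := ⟨⟨0, hn⟩⟩
    rw [sub_pow_char_pow_of_commute p k (Commute.one_right _), one_pow, Units.val_pow_eq_pow_val]

theorem isNilpotent_nilp_iff (p : ℕ) [Fact p.Prime] [CharP F p] (g : GL (Fin n) F) :
    IsNilpotent (nilp g) ↔ ∃ k : ℕ, orderOf g = p ^ k := by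
  have hp : p.Prime := Fact.out
  constructor
  · rintro ⟨j, hj⟩
    rw [nilp_pow_eq_zero_iff] at hj
    have h1 : ((g : Matrix (Fin n) (Fin n) F) - 1) ^ p ^ j = 0 :=
      pow_eq_zero_of_le (Nat.lt_pow_self hp.one_lt).le hj
    rw [sub_one_pow_char p g j, sub_eq_zero] at h1
    have h2 : g ^ p ^ j = 1 := Units.ext h1
    obtain ⟨i, _, hi⟩ := (Nat.dvd_prime_pow hp).1 (orderOf_dvd_of_pow_eq_one h2)
    exact ⟨i, hi⟩
  · rintro ⟨k, hk⟩
    refine ⟨p ^ k, ?_⟩
    rw [nilp_pow_eq_zero_iff, sub_one_pow_char p g k, ← hk, pow_orderOf_eq_one, Units.val_one, sub_self]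

theorem isConj_iff_sim (g g' : GL (Fin n) F) :
    IsConj g g' ↔ ∃ φ : (Fin n → F) ≃ₗ[F] (Fin n → F), ∀ v, φ (nilp g v) = nilp g' (φ v) := by
  rw [isConj_iff]
  constructor
  · rintro ⟨c, rfl⟩
    have h1 : ((c⁻¹ : GL (Fin n) F) : Matrix (Fin n) (Fin n) F) * (c : Matrix (Fin n) (Fin n) F) = 1 := by
      rw [← Units.val_mul, inv_mul_cancel, Units.val_one]
    have h2 : (c : Matrix (Fin n) (Fin n) F) * ((c⁻¹ : GL (Fin n) F) : Matrix (Fin n) (Fin n) F) = 1 := by
      rw [← Units.val_mul, mul_inv_cancel, Units.val_one]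
    refine ⟨Matrix.toLin'OfInv h1 h2, ?_⟩
    intro v
    show Matrix.toLin' (c : Matrix (Fin n) (Fin n) F) (Matrix.toLin' ((g : Matrix (Fin n) (Fin n) F) - 1) v) =
      Matrix.toLin' (((c * g * c⁻¹ : GL (Fin n) F) : Matrix (Fin n) (Fin n) F) - 1)
        (Matrix.toLin' (c : Matrix (Fin n) (Fin n) F) v)
    rw [← Matrix.toLin'_mul_apply, ← Matrix.toLin'_mul_apply]
    congr 2
    rw [Units.val_mul, Units.val_mul, Matrix.mul_sub, Matrix.sub_mul, Matrix.mul_one, Matrix.one_mul,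
      Matrix.mul_assoc, Matrix.mul_assoc, h1, Matrix.mul_one]
  · rintro ⟨φ, hφ⟩
    have h1 : LinearMap.toMatrix' (φ : (Fin n → F) →ₗ[F] (Fin n → F)) *
        LinearMap.toMatrix' (φ.symm : (Fin n → F) →ₗ[F] (Fin n → F)) = 1 := by
      rw [← LinearMap.toMatrix'_comp, LinearEquiv.comp_coe, LinearEquiv.symm_trans_self,
        LinearEquiv.refl_toLinearMap, LinearMap.toMatrix'_id]
    have h2 : LinearMap.toMatrix' (φ.symm : (Fin n → F) →ₗ[F] (Fin n → F)) *
        LinearMap.toMatrix' (φ : (Fin n → F) →ₗ[F] (Fin n → F)) = 1 := by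
      rw [← LinearMap.toMatrix'_comp, LinearEquiv.comp_coe, LinearEquiv.self_trans_symm,
        LinearEquiv.refl_toLinearMap, LinearMap.toMatrix'_id]
    let c : GL (Fin n) F := ⟨_, _, h1, h2⟩
    refine ⟨c, ?_⟩
    have h3 : (φ : (Fin n → F) →ₗ[F] (Fin n → F)) ∘ₗ nilp g = nilp g' ∘ₗ (φ : (Fin n → F) →ₗ[F] (Fin n → F)) :=
      LinearMap.ext hφ
    have h4 := congrArg LinearMap.toMatrix' h3
    rw [LinearMap.toMatrix'_comp, LinearMap.toMatrix'_comp, nilp, nilp, LinearMap.toMatrix'_toLin',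
      LinearMap.toMatrix'_toLin', Matrix.mul_sub, Matrix.sub_mul, Matrix.mul_one, Matrix.one_mul,
      sub_left_inj] at h4
    have h5 : c * g = g' * c := Units.ext h4
    rw [h5, mul_inv_cancel_right]

/-- the Jordan type of a unipotent element (`0` for non-unipotent elements). -/
noncomputable def ut (g : GL (Fin n) F) : Multiset ℕ := by
  classical
  exact if h : IsNilpotent (nilp g) then jtype (nilp g) h else 0

theorem ut_eq (g : GL (Fin n) F) (h : IsNilpotent (nilp g)) : ut g = jtype (nilp g) h := by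
  unfold ut
  rw [dif_pos h]

theorem ut_pos (g : GL (Fin n) F) : ∀ a ∈ ut g, 0 < a := by
  intro a ha
  by_cases h : IsNilpotent (nilp g)
  · rw [ut_eq g h] at ha
    exact jtype_pos _ h a ha
  · unfold ut at ha
    rw [dif_neg h] at ha
    simp at ha

theorem ut_sum (g : GL (Fin n) F) (h : IsNilpotent (nilp g)) : (ut g).sum = n := by
  rw [ut_eq g h, jtype_sum, Module.finrank_fin_fun]

theorem isConj_iff_ut (g g' : GL (Fin n) F) (h : IsNilpotent (nilp g)) (h' : IsNilpotent (nilp g')) :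
    IsConj g g' ↔ ut g = ut g' := by
  rw [ut_eq g h, ut_eq g' h', jtype_eq_iff, isConj_iff_sim]

theorem isNilpotent_conj (g g' : GL (Fin n) F) (hc : IsConj g g') (h : IsNilpotent (nilp g)) :
    IsNilpotent (nilp g') := by
  obtain ⟨φ, hφ⟩ := (isConj_iff_sim g g').1 hc
  obtain ⟨k, hk⟩ := h
  refine ⟨k, ?_⟩
  have hk' : ∀ k v, φ ((nilp g ^ k) v) = (nilp g' ^ k) (φ v) := by
    intro k
    induction k with
    | zero => intro v; simp
    | succ k ih =>
      intro v
      rw [pow_succ', pow_succ', Module.End.mul_apply, Module.End.mul_apply, hφ, ih]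
  apply LinearMap.ext
  intro w
  obtain ⟨v, rfl⟩ := φ.surjective w
  rw [← hk', hk]
  simp

theorem exists_ut (m : Multiset ℕ) (hm : ∀ a ∈ m, 0 < a) (hs : m.sum = n) :
    ∃ g : GL (Fin n) F, IsNilpotent (nilp g) ∧ ut g = m := by
  obtain ⟨N, hN, hNm⟩ := exists_of_type (F := F) (V := Fin n → F) m hm (by rw [hs, Module.finrank_fin_fun])
  obtain ⟨k, hk⟩ := hN
  -- `1 + N` is invertible
  have hunit : IsUnit (1 + LinearMap.toMatrix' N) := by
    have hnil : IsNilpotent (LinearMap.toMatrix' N) := by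
      refine ⟨k, ?_⟩
      have : LinearMap.toMatrix' (N ^ k) = (LinearMap.toMatrix' N) ^ k := by
        have := map_pow (LinearMap.toMatrixAlgEquiv' (R := F) (n := Fin n)) N k
        exact this
      rw [← this, hk, map_zero]
    exact IsNilpotent.isUnit_one_add hnil
  obtain ⟨g, hg⟩ := hunit
  have hg' : nilp g = N := by
    unfold nilp
    rw [hg, add_sub_cancel_left, Matrix.toLin'_toMatrix']
  have hnil : IsNilpotent (nilp g) := by rw [hg']; exact ⟨k, hk⟩
  refine ⟨g, hnil, ?_⟩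
  rw [ut_eq g hnil, ← hNm]
  congr 1


end Cfsg.Agent.Lib.helper18.Jordan
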