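import Mathlib
set_option autoImplicit false
namespace Cfsg.Agent.Lib.helper18.PGL
open scoped MatrixGroups

variable {F : Type*} [Field F] {n : ℕ}

/-- projective conjugacy of matrices. -/
def PConj (A B : Matrix (Fin n) (Fin n) F) : Prop :=
  ∃ (C D : Matrix (Fin n) (Fin n) F) (c : F), C * D = 1 ∧ D * C = 1 ∧ c ≠ 0 ∧ C * A = (c • B) * C

theorem scalar_eq (a : F) : Matrix.scalar (Fin n) a = a • (1 : Matrix (Fin n) (Fin n) F) := by
  rw [Matrix.smul_one_eq_diagonal]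
  rfl

theorem mk_eq_one_iff (g : GL (Fin n) F) :
    (QuotientGroup.mk g : GL (Fin n) F ⧸ Subgroup.center (GL (Fin n) F)) = 1 ↔
      ∃ a : F, (g : Matrix (Fin n) (Fin n) F) = a • 1 := by
  rw [QuotientGroup.eq_one_iff, Matrix.GeneralLinearGroup.mem_center_iff_val_mem_range_scalar]
  constructor
  · rintro ⟨a, ha⟩
    exact ⟨a, by rw [← ha, scalar_eq]⟩
  · rintro ⟨a, ha⟩
    exact ⟨a, by rw [ha, scalar_eq]⟩

theorem mk_eq_iff (g g' : GL (Fin n) F) :
    (QuotientGroup.mk g : GL (Fin n) F ⧸ Subgroup.center (GL (Fin n) F)) = QuotientGroup.mk g' ↔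
      ∃ c : F, c ≠ 0 ∧ (g' : Matrix (Fin n) (Fin n) F) = c • (g : Matrix (Fin n) (Fin n) F) := by
  rw [QuotientGroup.eq, Matrix.GeneralLinearGroup.center_eq_range_scalar]
  constructor
  · rintro ⟨u, hu⟩
    refine ⟨(u : F), Units.ne_zero u, ?_⟩
    have h1 : g' = g * Matrix.GeneralLinearGroup.scalar (Fin n) u := by
      rw [hu, mul_inv_cancel_left]
    rw [h1, Units.val_mul, Matrix.GeneralLinearGroup.coe_scalar, scalar_eq, Matrix.mul_smul,
      Matrix.mul_one]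
  · rintro ⟨c, hc, h⟩
    refine ⟨Units.mk0 c hc, ?_⟩
    apply Units.ext
    rw [Units.val_mul, Matrix.GeneralLinearGroup.coe_scalar, scalar_eq, h, Matrix.mul_smul,
      ← Units.val_mul, inv_mul_cancel, Units.val_one]
    rfl

theorem isConj_mk_iff (g g' : GL (Fin n) F) :
    IsConj (QuotientGroup.mk g : GL (Fin n) F ⧸ Subgroup.center (GL (Fin n) F))
      (QuotientGroup.mk g') ↔
      PConj (g : Matrix (Fin n) (Fin n) F) (g' : Matrix (Fin n) (Fin n) F) := by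
  rw [isConj_iff]
  constructor
  · rintro ⟨y, hy⟩
    obtain ⟨x, rfl⟩ := QuotientGroup.mk_surjective y
    rw [← QuotientGroup.mk_inv, ← QuotientGroup.mk_mul, ← QuotientGroup.mk_mul, mk_eq_iff] at hy
    obtain ⟨c, hc, h⟩ := hy
    refine ⟨x, (x⁻¹ : GL (Fin n) F), c⁻¹, ?_, ?_, inv_ne_zero hc, ?_⟩
    · rw [← Units.val_mul, mul_inv_cancel, Units.val_one]
    · rw [← Units.val_mul, inv_mul_cancel, Units.val_one]
    · rw [h, smul_smul, inv_mul_cancel₀ hc, one_smul, Units.val_mul, Units.val_mul, Matrix.mul_assoc,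
        ← Units.val_mul x⁻¹ x, inv_mul_cancel, Units.val_one, Matrix.mul_one]
  · rintro ⟨C, D, c, h1, h2, hc, h3⟩
    obtain ⟨x, hx⟩ : ∃ x : GL (Fin n) F, (x : Matrix (Fin n) (Fin n) F) = C ∧
        ((x⁻¹ : GL (Fin n) F) : Matrix (Fin n) (Fin n) F) = D := ⟨⟨C, D, h1, h2⟩, rfl, rfl⟩
    refine ⟨QuotientGroup.mk x, ?_⟩
    rw [← QuotientGroup.mk_inv, ← QuotientGroup.mk_mul, ← QuotientGroup.mk_mul, mk_eq_iff]
    refine ⟨c⁻¹, inv_ne_zero hc, ?_⟩
    rw [Units.val_mul, Units.val_mul, hx.1, hx.2, h3, Matrix.mul_assoc, h1, Matrix.mul_one, smul_smul,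
      inv_mul_cancel₀ hc, one_smul]

theorem orderOf_mk_eq_prime_iff (g : GL (Fin n) F) (r : ℕ) (hr : r.Prime) :
    orderOf (QuotientGroup.mk g : GL (Fin n) F ⧸ Subgroup.center (GL (Fin n) F)) = r ↔
      (∃ a : F, (g : Matrix (Fin n) (Fin n) F) ^ r = a • 1) ∧
        ¬ ∃ a : F, (g : Matrix (Fin n) (Fin n) F) = a • 1 := by
  have : Fact r.Prime := ⟨hr⟩
  rw [orderOf_eq_prime_iff, ← QuotientGroup.mk_pow, mk_eq_one_iff, Ne, mk_eq_one_iff,
    Units.val_pow_eq_pow_val]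

theorem PConj.symm {A B : Matrix (Fin n) (Fin n) F} (h : PConj A B) : PConj B A := by
  obtain ⟨C, D, c, h1, h2, hc, h3⟩ := h
  refine ⟨D, C, c⁻¹, h2, h1, inv_ne_zero hc, ?_⟩
  have h4 : B * C = c⁻¹ • (C * A) := by
    rw [h3, Matrix.smul_mul, smul_smul, inv_mul_cancel₀ hc, one_smul]
  calc D * B = D * (B * C) * D := by rw [Matrix.mul_assoc, Matrix.mul_assoc, h1, Matrix.mul_one]
    _ = D * (c⁻¹ • (C * A)) * D := by rw [h4]
    _ = c⁻¹ • ((D * C) * A * D) := by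
        rw [Matrix.mul_smul, Matrix.smul_mul, Matrix.mul_assoc D C A]
    _ = (c⁻¹ • A) * D := by rw [h2, Matrix.one_mul, Matrix.smul_mul]

theorem pconj_pow_eq {A B C D : Matrix (Fin n) (Fin n) F} {c : F} (h1 : C * D = 1)
    (h3 : C * A = (c • B) * C) (r : ℕ) (a b : F)
    (hn : 0 < n) (hA : A ^ r = a • 1) (hB : B ^ r = b • 1) : a = c ^ r * b := by
  have h4 : ∀ k : ℕ, C * A ^ k = (c • B) ^ k * C := by
    intro k
    induction k with
    | zero => rw [pow_zero, pow_zero, Matrix.mul_one, Matrix.one_mul]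
    | succ k ih => rw [pow_succ, ← Matrix.mul_assoc, ih, Matrix.mul_assoc, h3, ← Matrix.mul_assoc,
        ← pow_succ]
  have h5 := h4 r
  rw [hA, smul_pow, hB, Matrix.mul_smul, Matrix.mul_one, smul_smul, Matrix.smul_mul, Matrix.one_mul] at h5
  have h6 := congrArg (fun M => M * D) h5
  simp only [Matrix.smul_mul, h1] at h6
  have h7 := congrFun (congrFun h6 ⟨0, hn⟩) ⟨0, hn⟩
  simpa using h7

/-- power relation under projective conjugacy. -/
theorem PConj.pow_eq {A B : Matrix (Fin n) (Fin n) F} (h : PConj A B) (r : ℕ) (a b : F)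
    (hn : 0 < n) (hA : A ^ r = a • 1) (hB : B ^ r = b • 1) : ∃ c : F, c ≠ 0 ∧ a = c ^ r * b := by
  obtain ⟨C, D, c, h1, h2, hc, h3⟩ := h
  exact ⟨c, hc, pconj_pow_eq h1 h3 r a b hn hA hB⟩

theorem charpoly_eq_of_conj {A B C D : Matrix (Fin n) (Fin n) F} (h1 : C * D = 1) (h2 : D * C = 1)
    (h3 : C * A = B * C) : A.charpoly = B.charpoly := by
  have h4 : B = C * (A * D) := by
    rw [← Matrix.mul_assoc, h3, Matrix.mul_assoc, h1, Matrix.mul_one]
  rw [h4, Matrix.charpoly_mul_comm, Matrix.mul_assoc, h2, Matrix.mul_one]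

end Cfsg.Agent.Lib.helper18.PGL
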