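import Mathlib
import Cfsg.Agent.Lib.helper18.RCF4
set_option autoImplicit false
namespace Cfsg.Agent.Lib.helper18.RCF
open Polynomial

universe u v w
variable {F : Type u} [Field F]

theorem charpoly_smul {n : ℕ} (c : F) (hc : c ≠ 0) (A : Matrix (Fin n) (Fin n) F) :
    (c • A).charpoly = C (c ^ n) * A.charpoly.comp (C c⁻¹ * X) := by
  have h1 : (Polynomial.compRingHom (C c⁻¹ * X : F[X])).mapMatrix (Matrix.charmatrix A) =
      (C c⁻¹ : F[X]) • Matrix.charmatrix (c • A) := by
    ext i j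
    rw [RingHom.mapMatrix_apply, Matrix.map_apply, Matrix.smul_apply, smul_eq_mul,
      coe_compRingHom_apply]
    by_cases h : i = j
    · subst h
      rw [Matrix.charmatrix_apply_eq, Matrix.charmatrix_apply_eq, sub_comp, X_comp, C_comp,
        Matrix.smul_apply, smul_eq_mul, mul_sub, ← C_mul, ← mul_assoc, inv_mul_cancel₀ hc, one_mul]
    · rw [Matrix.charmatrix_apply_ne _ _ _ h, Matrix.charmatrix_apply_ne _ _ _ h, neg_comp, C_comp,
        Matrix.smul_apply, smul_eq_mul, mul_neg, ← C_mul, ← mul_assoc, inv_mul_cancel₀ hc, one_mul]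
  have h2 := congrArg Matrix.det h1
  rw [← RingHom.map_det, Matrix.det_smul, Fintype.card_fin, coe_compRingHom_apply] at h2
  unfold Matrix.charpoly
  rw [h2, ← mul_assoc, ← C_pow, ← C_mul, ← mul_pow, mul_inv_cancel₀ hc, one_pow, C_1, one_mul]

theorem exists_mat_of_family {n : ℕ} {ι : Type w} [Fintype ι] (g : ι → F[X]) (P : F[X])
    (hL : ∀ i, (g i).Monic ∧ g i ∣ P) (hdeg : (∏ i, g i).natDegree = n) :
    ∃ A : Matrix (Fin n) (Fin n) F, aeval A P = 0 ∧ A.charpoly = ∏ i, g i := by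
  obtain ⟨T, hT, hc⟩ := exists_end_of_dvd (V := Fin n → F) g P hL
    (by rw [hdeg, Module.finrank_fin_fun])
  refine ⟨LinearMap.toMatrix' T, ?_, ?_⟩
  · have h1 := Polynomial.aeval_algHom_apply (LinearMap.toMatrixAlgEquiv' (R := F) (n := Fin n)).toAlgHom T P
    have h2 : (LinearMap.toMatrixAlgEquiv' (R := F) (n := Fin n)).toAlgHom T = LinearMap.toMatrix' T := rfl
    rw [h2, hT, map_zero] at h1
    exact h1
  · rw [← Matrix.charpoly_toLin', Matrix.toLin'_toMatrix', hc]

end Cfsg.Agent.Lib.helper18.RCF
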