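import Mathlib
import Cfsg.Agent.Lib.helper18.RCF5
import Cfsg.Agent.Lib.helper18.PGL
set_option autoImplicit false
namespace Cfsg.Agent.Lib.helper18.PGL
open Polynomial Cfsg.Agent.Lib.helper18.RCF UniqueFactorizationMonoid

universe u
variable {F : Type u} [Field F]

/-- the polynomial with prescribed root multiplicities at the `r`-th roots of unity. -/
noncomputable def fpoly (r : ℕ) [Fintype (rootsOfUnity r F)] (a : rootsOfUnity r F → ℕ) : F[X] :=
  ∏ ζ : rootsOfUnity r F, (X - C ((ζ : Fˣ) : F)) ^ a ζ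

theorem fpoly_monic (r : ℕ) [Fintype (rootsOfUnity r F)] (a : rootsOfUnity r F → ℕ) : (fpoly r a).Monic :=
  monic_prod_of_monic _ _ (fun ζ _ => (monic_X_sub_C _).pow _)

theorem fpoly_natDegree (r : ℕ) [Fintype (rootsOfUnity r F)] (a : rootsOfUnity r F → ℕ) :
    (fpoly r a).natDegree = ∑ ζ, a ζ := by
  unfold fpoly
  rw [natDegree_prod_of_monic _ _ (fun ζ _ => (monic_X_sub_C _).pow _)]
  apply Finset.sum_congr rfl
  intro ζ _
  rw [natDegree_pow, natDegree_X_sub_C, mul_one]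

open Classical in
theorem fpoly_count (r : ℕ) [Fintype (rootsOfUnity r F)] (a : rootsOfUnity r F → ℕ) (ζ : rootsOfUnity r F) :
    (fpoly r a).roots.count (((ζ : Fˣ) : F)) = a ζ := by
  unfold fpoly
  rw [roots_prod _ _ (fpoly_monic r a).ne_zero, Multiset.count_bind]
  have h1 : ∀ ξ : rootsOfUnity r F,
      Multiset.count (((ζ : Fˣ) : F)) ((X - C ((ξ : Fˣ) : F)) ^ a ξ).roots =
        if ξ = ζ then a ξ else 0 := by
    intro ξ
    rw [roots_pow, roots_X_sub_C, Multiset.count_nsmul, Multiset.count_singleton]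
    by_cases h : ξ = ζ
    · subst h
      rw [if_pos rfl, if_pos rfl, mul_one]
    · rw [if_neg h, if_neg, mul_zero]
      intro h2
      exact h (Subtype.ext (Units.ext h2.symm))
  have h2 : (Multiset.map (fun ξ : rootsOfUnity r F =>
      Multiset.count (((ζ : Fˣ) : F)) ((X - C ((ξ : Fˣ) : F)) ^ a ξ).roots) Finset.univ.val).sum =
      ∑ ξ : rootsOfUnity r F, if ξ = ζ then a ξ else 0 := by
    rw [Finset.sum_eq_multiset_sum]
    congr 1
    apply Multiset.map_congr rfl
    intro ξ _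
    exact h1 ξ
  rw [h2, Finset.sum_ite_eq' Finset.univ ζ, if_pos (Finset.mem_univ _)]

theorem fpoly_inj (r : ℕ) [Fintype (rootsOfUnity r F)] (a a' : rootsOfUnity r F → ℕ) (h : fpoly r a = fpoly r a') :
    a = a' := by
  funext ζ
  rw [← fpoly_count r a ζ, ← fpoly_count r a' ζ, h]

theorem fpoly_scale (r : ℕ) [Fintype (rootsOfUnity r F)] (a : rootsOfUnity r F → ℕ) (n : ℕ) (hsum : ∑ ζ, a ζ = n)
    (c : rootsOfUnity r F) :
    C ((((c : Fˣ) : F)) ^ n) * (fpoly r a).comp (C (((c : Fˣ) : F))⁻¹ * X) =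
      fpoly r (fun ζ => a (c⁻¹ * ζ)) := by
  have hc : (((c : Fˣ) : F)) ≠ 0 := Units.ne_zero _
  unfold fpoly
  rw [prod_comp, ← hsum, C_pow, ← Finset.prod_pow_eq_pow_sum, ← Finset.prod_mul_distrib]
  apply Fintype.prod_equiv (Equiv.mulLeft c)
  intro ζ
  show C (((c : Fˣ) : F)) ^ a ζ * ((X - C ((ζ : Fˣ) : F)) ^ a ζ).comp (C (((c : Fˣ) : F))⁻¹ * X) =
    (X - C (((c * ζ : rootsOfUnity r F) : Fˣ) : F)) ^ a (c⁻¹ * (c * ζ))
  rw [inv_mul_cancel_left, pow_comp, sub_comp, X_comp, C_comp, ← mul_pow,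
    mul_sub, ← mul_assoc, ← C_mul, mul_inv_cancel₀ hc, C_1, one_mul, ← C_mul]
  rfl

theorem fpoly_single (r : ℕ) [Fintype (rootsOfUnity r F)] [DecidableEq (rootsOfUnity r F)]
    (ζ : rootsOfUnity r F) (n : ℕ) :
    fpoly r (Pi.single ζ n) = (X - C ((ζ : Fˣ) : F)) ^ n := by
  unfold fpoly
  rw [Finset.prod_eq_single ζ]
  · rw [Pi.single_eq_same]
  · intro ξ _ hne
    rw [Pi.single_eq_of_ne hne, pow_zero]
  · intro h
    exact absurd (Finset.mem_univ _) h

theorem single_of_apply_eq {ι : Type*} [Fintype ι] [DecidableEq ι] (a : ι → ℕ) (n : ℕ)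
    (hsum : ∑ i, a i = n) (i : ι) (h : a i = n) : a = Pi.single i n := by
  funext j
  by_cases hj : j = i
  · subst hj
    rw [Pi.single_eq_same, h]
  · rw [Pi.single_eq_of_ne hj]
    have h1 := Finset.add_sum_erase Finset.univ a (Finset.mem_univ i)
    have h2 : a j ≤ ∑ x ∈ Finset.univ.erase i, a x :=
      Finset.single_le_sum (f := a) (fun _ _ => Nat.zero_le _)
        (Finset.mem_erase.2 ⟨hj, Finset.mem_univ _⟩)
    omega

theorem exists_mat_fpoly (r : ℕ) [Fintype (rootsOfUnity r F)] (a : rootsOfUnity r F → ℕ) (n : ℕ)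
    (hsum : ∑ ζ, a ζ = n) :
    ∃ A : Matrix (Fin n) (Fin n) F, A ^ r = 1 ∧ A.charpoly = fpoly r a := by
  have hprod : ∏ x : (Σ ζ : rootsOfUnity r F, Fin (a ζ)), (X - C ((x.1 : Fˣ) : F)) = fpoly r a := by
    unfold fpoly
    rw [Fintype.prod_sigma]
    apply Finset.prod_congr rfl
    intro ζ _
    show ∏ _y : Fin (a ζ), (X - C ((ζ : Fˣ) : F)) = _
    rw [Finset.prod_const, Finset.card_univ, Fintype.card_fin]
  obtain ⟨A, hA, hc⟩ := exists_mat_of_family (n := n)
    (fun x : (Σ ζ : rootsOfUnity r F, Fin (a ζ)) => (X - C ((x.1 : Fˣ) : F))) (X ^ r - 1)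
    (fun x => ⟨monic_X_sub_C _, by
      have h1 : ((x.1 : Fˣ) : F) ^ r = 1 := by
        rw [← Units.val_pow_eq_pow_val, (mem_rootsOfUnity r _).1 x.1.2, Units.val_one]
      rw [dvd_iff_isRoot, IsRoot, eval_sub, eval_pow, eval_X, eval_one, h1, sub_self]⟩)
    (by rw [hprod, fpoly_natDegree, hsum])
  refine ⟨A, ?_, by rw [hc, hprod]⟩
  rw [map_sub, map_pow, aeval_X, map_one, sub_eq_zero] at hA
  exact hA



theorem factor_dvd_of_aeval_mat {n : ℕ} (A : Matrix (Fin n) (Fin n) F) (P : F[X])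
    (hP : aeval A P = 0) (h : F[X]) (hh : Irreducible h) (hd : h ∣ A.charpoly) : h ∣ P := by
  apply factor_dvd_of_aeval (Matrix.toLin' A) P _ h hh (by rw [Matrix.charpoly_toLin']; exact hd)
  have h1 := Polynomial.aeval_algHom_apply (Matrix.toLinAlgEquiv' (R := F) (n := Fin n)).toAlgHom A P
  have h2 : (Matrix.toLinAlgEquiv' (R := F) (n := Fin n)).toAlgHom A = Matrix.toLin' A := rfl
  rw [h2, hP, map_zero] at h1
  exact h1

theorem ff_cast_ne_zero [Fintype F] {q r : ℕ} (hF : Fintype.card F = q) (hrq : r ∣ q - 1) :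
    (r : F) ≠ 0 := by
  obtain ⟨k, hk⟩ := hrq
  have hq1 : 1 ≤ q := by rw [← hF]; exact Fintype.card_pos
  have h1 : ((q - 1 : ℕ) : F) = -1 := by
    rw [Nat.cast_sub hq1, ← hF, FiniteField.cast_card_eq_zero, Nat.cast_one, zero_sub]
  intro h0
  rw [hk, Nat.cast_mul, h0, zero_mul] at h1
  exact one_ne_zero (neg_eq_zero.1 h1.symm)

theorem ff_cast_ne_zero' [Fintype F] {q r : ℕ} (hF : Fintype.card F = q) (hrq : r ∣ q - 1) :
    ((r * (q - 1) : ℕ) : F) ≠ 0 := by
  have hq1 : 1 ≤ q := by rw [← hF]; exact Fintype.card_pos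
  have h1 : ((q - 1 : ℕ) : F) = -1 := by
    rw [Nat.cast_sub hq1, ← hF, FiniteField.cast_card_eq_zero, Nat.cast_one, zero_sub]
  rw [Nat.cast_mul, h1]
  exact mul_ne_zero (ff_cast_ne_zero hF hrq) (neg_ne_zero.2 one_ne_zero)

theorem ff_linear_factor [Fintype F] {q r : ℕ} [NeZero r]
    (hF : Fintype.card F = q) (hrq : r ∣ q - 1) (h : F[X]) (hm : h.Monic) (hirr : Irreducible h)
    (hd : h ∣ (X ^ r - 1 : F[X])) :
    ∃ ζ : rootsOfUnity r F, h = X - C ((ζ : Fˣ) : F) := by
  have hq1 : 1 ≤ q := by rw [← hF]; exact Fintype.card_pos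
  obtain ⟨k, hk⟩ := hrq
  have h1 : (X ^ r - 1 : F[X]) ∣ X ^ (q - 1) - 1 := by
    rw [hk, pow_mul]
    simpa using sub_dvd_pow_sub_pow ((X : F[X]) ^ r) 1 k
  have h2 : (X ^ (q - 1) - 1 : F[X]) ∣ X ^ q - X :=
    ⟨X, by rw [sub_mul, one_mul, ← pow_succ, Nat.sub_add_cancel hq1]⟩
  have h3 : h ∣ X ^ (Nat.card F ^ 1) - X := by
    rw [pow_one, Nat.card_eq_fintype_card, hF]
    exact dvd_trans hd (dvd_trans h1 h2)
  have h4 := hirr.natDegree_dvd_iff_dvd_X_pow_card_pow_sub_X.2 h3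
  have h5 : h.natDegree = 1 := Nat.dvd_one.1 h4
  have h6 := hm.eq_X_add_C h5
  have h7 : h = X - C (-(h.coeff 0)) := by
    rw [C_neg, sub_neg_eq_add]
    exact h6
  have hx : (-(h.coeff 0)) ^ r = 1 := by
    have h8 : (X ^ r - 1 : F[X]).IsRoot (-(h.coeff 0)) := by
      rw [← dvd_iff_isRoot, ← h7]
      exact hd
    rw [IsRoot, eval_sub, eval_pow, eval_X, eval_one, sub_eq_zero] at h8
    exact h8
  refine ⟨rootsOfUnity.mkOfPowEq _ hx, ?_⟩
  rw [rootsOfUnity.coe_mkOfPowEq]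
  exact h7

theorem exists_fpoly [Fintype F] {q r n : ℕ} [NeZero r] [Fintype (rootsOfUnity r F)]
    (hF : Fintype.card F = q) (hrq : r ∣ q - 1) (E : Matrix (Fin n) (Fin n) F) (hE : E ^ r = 1) :
    ∃ a : rootsOfUnity r F → ℕ, ∑ ζ, a ζ = n ∧ E.charpoly = fpoly r a := by
  classical
  have hNFmon : ∀ h ∈ normalizedFactors E.charpoly, h.Monic := by
    intro h hh
    rw [← normalize_normalized_factor h hh]
    exact monic_normalize (irreducible_of_normalized_factor h hh).ne_zero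
  have hlin : ∀ h ∈ normalizedFactors E.charpoly,
      ∃ ζ : rootsOfUnity r F, h = X - C ((ζ : Fˣ) : F) := fun h hh =>
    ff_linear_factor hF hrq h (hNFmon h hh) (irreducible_of_normalized_factor h hh)
      (factor_dvd_of_pow_eq_one E r hE h (irreducible_of_normalized_factor h hh)
        (dvd_of_mem_normalizedFactors hh))
  have hprod : (normalizedFactors E.charpoly).prod = E.charpoly := by
    apply eq_of_monic_of_associated _ (Matrix.charpoly_monic E)
      (prod_normalizedFactors (Matrix.charpoly_monic E).ne_zero)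
    have := monic_multiset_prod_of_monic (normalizedFactors E.charpoly) id
      (fun h hh => hNFmon h hh)
    simpa using this
  have hinj : Function.Injective (fun ζ : rootsOfUnity r F => (X - C ((ζ : Fˣ) : F) : F[X])) := by
    intro ζ ξ h
    have h1 := congrArg (fun p : F[X] => p.coeff 0) h
    simp only [coeff_sub, coeff_X_zero, coeff_C_zero, zero_sub, neg_inj] at h1
    exact Subtype.ext (Units.ext h1)
  have hf : E.charpoly = fpoly r (fun ζ : rootsOfUnity r F =>
      (normalizedFactors E.charpoly).count (X - C ((ζ : Fˣ) : F))) := by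
    conv_lhs => rw [← hprod]
    rw [Finset.prod_multiset_count_of_subset (normalizedFactors E.charpoly)
      (Finset.univ.image (fun ζ : rootsOfUnity r F => (X - C ((ζ : Fˣ) : F) : F[X]))) (by
        intro h hh
        rw [Multiset.mem_toFinset] at hh
        obtain ⟨ζ, rfl⟩ := hlin h hh
        exact Finset.mem_image_of_mem _ (Finset.mem_univ _)),
      Finset.prod_image (fun x _ y _ hxy => hinj hxy)]
    rfl
  refine ⟨_, ?_, hf⟩
  rw [← fpoly_natDegree, ← hf, Matrix.charpoly_natDegree_eq_dim, Fintype.card_fin]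

theorem charpoly_smul_one {n : ℕ} (b : F) :
    (b • (1 : Matrix (Fin n) (Fin n) F)).charpoly = (X - C b) ^ n := by
  rw [Matrix.smul_one_eq_diagonal, Matrix.charpoly_diagonal, Finset.prod_const, Finset.card_univ,
    Fintype.card_fin]

theorem typeI_scalar_iff {r n : ℕ} [NeZero r] [Fintype (rootsOfUnity r F)] (hn : 0 < n)
    (hrF : (r : F) ≠ 0) (E : Matrix (Fin n) (Fin n) F) (hE : E ^ r = 1)
    (a : rootsOfUnity r F → ℕ) (hsum : ∑ ζ, a ζ = n) (hχ : E.charpoly = fpoly r a) :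
    (∃ b : F, E = b • 1) ↔ ∃ ζ, a ζ = n := by
  classical
  constructor
  · rintro ⟨b, rfl⟩
    have hb : b ^ r = 1 := by
      rw [_root_.smul_pow, one_pow] at hE
      have := congrFun (congrFun hE ⟨0, hn⟩) ⟨0, hn⟩
      simpa using this
    refine ⟨rootsOfUnity.mkOfPowEq b hb, ?_⟩
    have h1 : (b • (1 : Matrix (Fin n) (Fin n) F)).charpoly =
        fpoly r (Pi.single (rootsOfUnity.mkOfPowEq b hb) n) := by
      rw [fpoly_single, rootsOfUnity.coe_mkOfPowEq, charpoly_smul_one]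
    rw [hχ] at h1
    rw [fpoly_inj r _ _ h1, Pi.single_eq_same]
  · rintro ⟨ζ, hζ⟩
    have ha := single_of_apply_eq a n hsum ζ hζ
    have hζr : ((ζ : Fˣ) : F) ^ r = 1 := by
      rw [← Units.val_pow_eq_pow_val, (mem_rootsOfUnity r _).1 ζ.2, Units.val_one]
    have h1 : E.charpoly = (((ζ : Fˣ) : F) • (1 : Matrix (Fin n) (Fin n) F)).charpoly := by
      rw [hχ, ha, fpoly_single, charpoly_smul_one]
    obtain ⟨C', D, h2, h3, h4⟩ := ss_conj_mat E _ r r hrF hrF hE
      (by rw [_root_.smul_pow, one_pow, hζr, one_smul]) h1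
    refine ⟨((ζ : Fˣ) : F), ?_⟩
    calc E = (D * C') * E := by rw [h3, Matrix.one_mul]
      _ = D * (C' * E) := Matrix.mul_assoc _ _ _
      _ = D * ((((ζ : Fˣ) : F) • (1 : Matrix (Fin n) (Fin n) F)) * C') := by rw [h4]
      _ = ((ζ : Fˣ) : F) • 1 := by rw [Matrix.smul_mul, Matrix.one_mul, Matrix.mul_smul, h3]

theorem typeI_pconj_iff {r n : ℕ} [NeZero r] [Fintype (rootsOfUnity r F)] (hn : 0 < n)
    (hrF : (r : F) ≠ 0) (A A' : Matrix (Fin n) (Fin n) F) (a a' : rootsOfUnity r F → ℕ)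
    (hA : A ^ r = 1) (hA' : A' ^ r = 1) (hχ : A.charpoly = fpoly r a)
    (hχ' : A'.charpoly = fpoly r a') (hsum' : ∑ ζ, a' ζ = n) :
    PConj A A' ↔ ∃ c : rootsOfUnity r F, a = fun ζ => a' (c⁻¹ * ζ) := by
  constructor
  · rintro ⟨C', D, c, h1, h2, hc, h3⟩
    have hcr : c ^ r = 1 := by
      have := pconj_pow_eq h1 h3 r 1 1 hn (by rw [hA, one_smul]) (by rw [hA', one_smul])
      rw [mul_one] at this
      exact this.symm
    refine ⟨rootsOfUnity.mkOfPowEq c hcr, ?_⟩
    apply fpoly_inj r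
    rw [← hχ, charpoly_eq_of_conj h1 h2 h3, charpoly_smul c hc, hχ',
      ← fpoly_scale r a' n hsum' (rootsOfUnity.mkOfPowEq c hcr), rootsOfUnity.coe_mkOfPowEq]
  · rintro ⟨c, rfl⟩
    have hc : (((c : Fˣ) : F)) ≠ 0 := Units.ne_zero _
    have hcr : ((c : Fˣ) : F) ^ r = 1 := by
      rw [← Units.val_pow_eq_pow_val, (mem_rootsOfUnity r _).1 c.2, Units.val_one]
    have h1 : A.charpoly = ((((c : Fˣ) : F)) • A').charpoly := by
      rw [hχ, charpoly_smul _ hc, hχ', fpoly_scale r a' n hsum' c]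
    obtain ⟨C', D, h2, h3, h4⟩ := ss_conj_mat A _ r r hrF hrF hA
      (by rw [_root_.smul_pow, hA', hcr, one_smul]) h1
    exact ⟨C', D, _, h2, h3, hc, h4⟩



/-- non-concentrated multiplicity functions with total `n`. -/
def Om (G : Type*) [Fintype G] (n : ℕ) : Type _ := {a : G → ℕ // ∑ ζ, a ζ = n ∧ ∀ ζ, a ζ ≠ n}

instance Om.instMulAction (G : Type*) [Group G] [Fintype G] (n : ℕ) : MulAction G (Om G n) where
  smul c a := ⟨fun ζ => a.1 (c⁻¹ * ζ), by
    refine ⟨?_, fun ζ => a.2.2 _⟩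
    exact (Fintype.sum_equiv (Equiv.mulLeft c⁻¹) _ _ (fun ζ => rfl)).trans a.2.1⟩
  one_smul a := by
    apply Subtype.ext
    funext ζ
    show a.1 ((1 : G)⁻¹ * ζ) = a.1 ζ
    rw [inv_one, one_mul]
  mul_smul c d a := by
    apply Subtype.ext
    funext ζ
    show a.1 ((c * d)⁻¹ * ζ) = a.1 (d⁻¹ * (c⁻¹ * ζ))
    rw [mul_inv_rev, mul_assoc]

theorem Om.smul_val {G : Type*} [Group G] [Fintype G] {n : ℕ} (c : G) (a : Om G n) (ζ : G) :
    (c • a).1 ζ = a.1 (c⁻¹ * ζ) := rfl

theorem card_sum_eq (G : Type*) [Fintype G] (n : ℕ) :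
    Nat.card {a : G → ℕ // ∑ ζ, a ζ = n} = (Fintype.card G + n - 1).choose n := by
  classical
  rw [← Nat.card_congr (Sym.equivNatSumOfFintype G n), Nat.card_eq_fintype_card,
    Sym.card_sym_eq_choose]

theorem finite_sum_eq (G : Type*) [Fintype G] (n : ℕ) : Finite {a : G → ℕ // ∑ ζ, a ζ = n} := by
  classical
  exact Finite.of_equiv _ (Sym.equivNatSumOfFintype G n)

instance Om.instFinite (G : Type*) [Fintype G] (n : ℕ) : Finite (Om G n) := by
  have := finite_sum_eq G n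
  refine Finite.of_injective (fun a : Om G n => (⟨a.1, a.2.1⟩ : {a : G → ℕ // ∑ ζ, a ζ = n})) ?_
  intro a b h
  have h' : (a.1 : G → ℕ) = b.1 := congrArg (fun x : {a : G → ℕ // ∑ ζ, a ζ = n} => x.1) h
  exact Subtype.ext h'

theorem card_Om (G : Type*) [Fintype G] (n : ℕ) (hn : 0 < n) :
    Nat.card (Om G n) = (Fintype.card G + n - 1).choose n - Fintype.card G := by
  classical
  have hfin := finite_sum_eq G n
  have h1 : Nat.card (Om G n) = Set.ncard ({a : G → ℕ | ∑ ζ, a ζ = n} \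
      Set.range (fun ζ : G => (Pi.single ζ n : G → ℕ))) := by
    rw [← Nat.card_coe_set_eq]
    apply Nat.card_congr
    refine Equiv.subtypeEquivRight ?_
    intro a
    simp only [Set.mem_diff, Set.mem_setOf_eq, Set.mem_range, not_exists]
    constructor
    · rintro ⟨h1, h2⟩
      refine ⟨h1, fun ζ hζ => h2 ζ ?_⟩
      rw [← hζ, Pi.single_eq_same]
    · rintro ⟨h1, h2⟩
      refine ⟨h1, fun ζ hζ => h2 ζ ?_⟩
      exact (single_of_apply_eq a n h1 ζ hζ).symm
  have hsub : Set.range (fun ζ : G => (Pi.single ζ n : G → ℕ)) ⊆ {a : G → ℕ | ∑ ζ, a ζ = n} := by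
    rintro _ ⟨ζ, rfl⟩
    show ∑ ξ, (Pi.single ζ n : G → ℕ) ξ = n
    rw [Finset.sum_pi_single', if_pos (Finset.mem_univ _)]
  have hinj : Function.Injective (fun ζ : G => (Pi.single ζ n : G → ℕ)) := by
    intro ζ ξ h
    by_contra hne
    have h2 := congrFun h ζ
    simp only [Pi.single_eq_same] at h2
    rw [Pi.single_eq_of_ne hne] at h2
    omega
  rw [h1, Set.ncard_diff hsub (Set.finite_range _), ← Nat.card_coe_set_eq,
    ← Nat.card_coe_set_eq, Nat.card_range_of_injective hinj, Nat.card_eq_fintype_card (α := G)]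
  congr 1
  exact card_sum_eq G n

theorem const_of_fixed {G : Type*} [Group G] [Fintype G] {n r : ℕ} (hr : r.Prime)
    (hG : Fintype.card G = r) (c : G) (hc : c ≠ 1) (a : Om G n) (ha : c • a = a) (ζ ξ : G) :
    a.1 ζ = a.1 ξ := by
  have : Fact r.Prime := ⟨hr⟩
  let S : Subgroup G :=
    { carrier := {d | ∀ ζ, a.1 (d * ζ) = a.1 ζ}
      mul_mem' := by
        intro d e hd he ζ
        rw [mul_assoc, hd, he]
      one_mem' := by
        intro ζ
        rw [one_mul]
      inv_mem' := by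
        intro d hd ζ
        have := hd (d⁻¹ * ζ)
        rw [mul_inv_cancel_left] at this
        exact this.symm }
  have hcS : c⁻¹ ∈ S := by
    intro ζ
    have := congrFun (congrArg Subtype.val ha) ζ
    rw [Om.smul_val] at this
    exact this
  have htop : Subgroup.zpowers c⁻¹ = ⊤ :=
    zpowers_eq_top_of_prime_card (by rw [Nat.card_eq_fintype_card, hG]) (inv_ne_one.2 hc)
  have hall : ∀ d : G, d ∈ S := by
    intro d
    have : d ∈ Subgroup.zpowers c⁻¹ := by rw [htop]; exact Subgroup.mem_top d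
    exact (Subgroup.zpowers_le.2 hcS) this
  have := hall (ζ * ξ⁻¹) ξ
  rw [inv_mul_cancel_right] at this
  exact this

theorem card_fixed {G : Type*} [Group G] [Fintype G] {n r : ℕ} (hr : r.Prime)
    (hG : Fintype.card G = r) (hn : 0 < n) (c : G) (hc : c ≠ 1) :
    Nat.card (MulAction.fixedBy (Om G n) c) = if r ∣ n then 1 else 0 := by
  have hconst : ∀ a : Om G n, c • a = a → r * a.1 1 = n := by
    intro a ha
    have h1 : ∑ ζ, a.1 ζ = ∑ _ζ : G, a.1 1 :=
      Finset.sum_congr rfl (fun ζ _ => const_of_fixed hr hG c hc a ha ζ 1)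
    rw [a.2.1, Finset.sum_const, Finset.card_univ, hG, smul_eq_mul] at h1
    exact h1.symm
  split_ifs with hdvd
  · rw [Nat.card_eq_one_iff_unique]
    constructor
    · constructor
      rintro ⟨a, ha⟩ ⟨b, hb⟩
      apply Subtype.ext
      apply Subtype.ext
      funext ζ
      have h1 := hconst a ha
      have h2 := hconst b hb
      rw [const_of_fixed hr hG c hc a ha ζ 1, const_of_fixed hr hG c hc b hb ζ 1]
      exact Nat.eq_of_mul_eq_mul_left hr.pos (h1.trans h2.symm)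
    · obtain ⟨k, hk⟩ := hdvd
      have hk0 : 0 < k := by
        rcases Nat.eq_zero_or_pos k with h | h
        · rw [h, mul_zero] at hk; omega
        · exact h
      have hkn : k ≠ n := by
        have := hr.two_le
        intro h
        rw [h] at hk
        nlinarith
      have hs : ∑ _ζ : G, k = n := by
        rw [Finset.sum_const, Finset.card_univ, hG, smul_eq_mul, hk]
      obtain ⟨a₀, ha₀⟩ : ∃ a₀ : Om G n, ∀ ζ, a₀.1 ζ = k := ⟨⟨fun _ => k, hs, fun _ => hkn⟩, fun _ => rfl⟩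
      refine ⟨⟨a₀, ?_⟩⟩
      show c • a₀ = a₀
      apply Subtype.ext
      funext ζ
      rw [Om.smul_val, ha₀, ha₀]
  · rw [Nat.card_eq_zero]
    left
    constructor
    rintro ⟨a, ha⟩
    exact hdvd ⟨a.1 1, (hconst a ha).symm⟩

theorem orbit_count (G : Type*) [Group G] [Fintype G] (n r : ℕ) (hr : r.Prime)
    (hG : Fintype.card G = r) (hn : 0 < n) :
    Nat.card (Quotient (MulAction.orbitRel G (Om G n))) * r =
      ((r + n - 1).choose n - r) + (r - 1) * (if r ∣ n then 1 else 0) := by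
  classical
  have : Fintype (Om G n) := Fintype.ofFinite _
  have hB := MulAction.sum_card_fixedBy_eq_card_orbits_mul_card_group G (Om G n)
  rw [hG] at hB
  rw [Nat.card_eq_fintype_card, ← hB, ← Finset.add_sum_erase Finset.univ _ (Finset.mem_univ (1 : G))]
  congr 1
  · rw [← Nat.card_eq_fintype_card, MulAction.fixedBy_one_eq_univ, Nat.card_congr (Equiv.Set.univ _),
      card_Om G n hn, hG]
  · rw [Finset.sum_congr rfl (fun c hc => by
      rw [← Nat.card_eq_fintype_card, card_fixed hr hG hn c (Finset.ne_of_mem_erase hc)]),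
      Finset.sum_const, Finset.card_erase_of_mem (Finset.mem_univ _), Finset.card_univ, hG,
      smul_eq_mul]


end Cfsg.Agent.Lib.helper18.PGL
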