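import Mathlib
import Cfsg.Agent.Lib.helper18.PGL2
set_option autoImplicit false
namespace Cfsg.Agent.Lib.helper18.PGL
open Polynomial Cfsg.Agent.Lib.helper18.RCF UniqueFactorizationMonoid

universe u
variable {F : Type u} [Field F]

theorem exists_gen [Fintype F] {q : ℕ} (hF : Fintype.card F = q) :
    ∃ γ : Fˣ, orderOf γ = q - 1 ∧ ∀ x : Fˣ, ∃ m : ℕ, x = γ ^ m := by
  obtain ⟨γ, hγ⟩ := IsCyclic.exists_monoid_generator (α := Fˣ)
  refine ⟨γ, ?_, ?_⟩
  · have h1 : orderOf γ = Nat.card Fˣ := orderOf_eq_card_of_forall_mem_zpowers (fun x => by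
      obtain ⟨m, hm⟩ := (Submonoid.mem_powers_iff _ _).1 (hγ x)
      exact ⟨m, by simpa using hm⟩)
    rw [h1, Nat.card_units, Nat.card_eq_fintype_card, hF]
  · intro x
    obtain ⟨m, hm⟩ := (Submonoid.mem_powers_iff _ _).1 (hγ x)
    exact ⟨m, hm.symm⟩

theorem gen_pow_congr {q r : ℕ} (hrq : r ∣ q - 1) (γ : Fˣ) (hγ : orderOf γ = q - 1)
    (hgen : ∀ x : Fˣ, ∃ m : ℕ, x = γ ^ m) (m₁ m₂ : ℕ) (c : F) (hc : c ≠ 0)
    (h : ((γ : F)) ^ m₁ = c ^ r * (γ : F) ^ m₂) : m₁ ≡ m₂ [MOD r] := by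
  obtain ⟨k, hk⟩ := hgen (Units.mk0 c hc)
  have h1 : γ ^ m₁ = γ ^ (m₂ + k * r) := by
    apply Units.ext
    rw [Units.val_pow_eq_pow_val, h, pow_add, pow_mul, Units.val_mul, Units.val_pow_eq_pow_val,
      Units.val_pow_eq_pow_val, ← hk, Units.val_mk0, mul_comm]
  rw [pow_eq_pow_iff_modEq, hγ] at h1
  have h2 := h1.of_dvd hrq
  have h3 : m₂ + k * r ≡ m₂ [MOD r] := Nat.add_mul_mod_self_right _ _ _
  exact h2.trans h3

theorem card_roots [Fintype F] {q r : ℕ} [NeZero r] [Fintype (rootsOfUnity r F)]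
    (hF : Fintype.card F = q) (hrq : r ∣ q - 1) : Fintype.card (rootsOfUnity r F) = r := by
  obtain ⟨γ, hγ, _⟩ := exists_gen hF
  obtain ⟨k, hk⟩ := hrq
  have hq : 1 < q := by rw [← hF]; exact Fintype.one_lt_card
  have hk0 : k ≠ 0 := by
    rintro rfl
    rw [mul_zero] at hk
    omega
  have h1 : orderOf (γ ^ k) = r := by
    rw [orderOf_pow_of_dvd hk0 (by rw [hγ, hk]; exact Dvd.intro_left r rfl), hγ, hk,
      Nat.mul_div_cancel _ (Nat.pos_of_ne_zero hk0)]
  have h2 : IsPrimitiveRoot (γ ^ k) r := by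
    rw [← h1]
    exact IsPrimitiveRoot.orderOf _
  rw [← Nat.card_eq_fintype_card]
  exact h2.card_rootsOfUnity'

theorem typeII_struct {r n : ℕ} (hr : r.Prime) (A : Matrix (Fin n) (Fin n) F) (l : F)
    (hl : ∀ b : F, b ^ r ≠ l) (hA : A ^ r = l • 1) :
    r ∣ n ∧ A.charpoly = (X ^ r - C l) ^ (n / r) := by
  classical
  have hirr : Irreducible (X ^ r - C l : F[X]) := X_pow_sub_C_irreducible_of_prime hr hl
  have hmon : (X ^ r - C l : F[X]).Monic := monic_X_pow_sub_C l hr.ne_zero
  have hdeg : (X ^ r - C l : F[X]).natDegree = r := natDegree_X_pow_sub_C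
  have haev : aeval A (X ^ r - C l : F[X]) = 0 := by
    rw [map_sub, map_pow, aeval_X, aeval_C, hA, Algebra.algebraMap_eq_smul_one, sub_self]
  have hNFmon : ∀ h ∈ normalizedFactors A.charpoly, h.Monic := by
    intro h hh
    rw [← normalize_normalized_factor h hh]
    exact monic_normalize (irreducible_of_normalized_factor h hh).ne_zero
  have hall : ∀ h ∈ normalizedFactors A.charpoly, h = X ^ r - C l := by
    intro h hh
    have hirr' := irreducible_of_normalized_factor h hh
    have hd := factor_dvd_of_aeval_mat A _ haev h hirr' (dvd_of_mem_normalizedFactors hh)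
    exact eq_of_monic_of_associated (hNFmon h hh) hmon (hirr'.associated_of_dvd hirr hd)
  have hM := Multiset.eq_replicate_card.2 hall
  have hprod : (normalizedFactors A.charpoly).prod = A.charpoly := by
    apply eq_of_monic_of_associated _ (Matrix.charpoly_monic A)
      (prod_normalizedFactors (Matrix.charpoly_monic A).ne_zero)
    have := monic_multiset_prod_of_monic (normalizedFactors A.charpoly) id
      (fun h hh => hNFmon h hh)
    simpa using this
  have hc : A.charpoly = (X ^ r - C l) ^ (Multiset.card (normalizedFactors A.charpoly)) := by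
    conv_lhs => rw [← hprod, hM]
    rw [Multiset.prod_replicate]
  have hn : n = Multiset.card (normalizedFactors A.charpoly) * r := by
    have := congrArg natDegree hc
    rw [Matrix.charpoly_natDegree_eq_dim, Fintype.card_fin, natDegree_pow, hdeg] at this
    exact this
  have hk : n / r = Multiset.card (normalizedFactors A.charpoly) :=
    Nat.div_eq_of_eq_mul_left hr.pos hn
  refine ⟨⟨Multiset.card (normalizedFactors A.charpoly), by rw [mul_comm]; exact hn⟩, ?_⟩
  rw [hk]
  exact hc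

theorem typeII_exists {r n : ℕ} (hr : r.Prime) (hdvd : r ∣ n) (l : F) :
    ∃ B : Matrix (Fin n) (Fin n) F, B ^ r = l • 1 := by
  obtain ⟨B, hB, _⟩ := exists_mat_of_family (n := n)
    (fun _ : Fin (n / r) => (X ^ r - C l : F[X])) (X ^ r - C l)
    (fun _ => ⟨monic_X_pow_sub_C l hr.ne_zero, dvd_rfl⟩) (by
      rw [Finset.prod_const, Finset.card_univ, Fintype.card_fin, natDegree_pow,
        natDegree_X_pow_sub_C, Nat.div_mul_cancel hdvd])
  refine ⟨B, ?_⟩
  rw [map_sub, map_pow, aeval_X, aeval_C, Algebra.algebraMap_eq_smul_one, sub_eq_zero] at hB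
  exact hB

theorem typeII_conj [Fintype F] {q r n : ℕ} (hF : Fintype.card F = q) (hr : r.Prime)
    (hrq : r ∣ q - 1) (A A' : Matrix (Fin n) (Fin n) F) (l : F) (hl0 : l ≠ 0)
    (hl : ∀ b : F, b ^ r ≠ l) (hA : A ^ r = l • 1) (hA' : A' ^ r = l • 1) :
    ∃ C D : Matrix (Fin n) (Fin n) F, C * D = 1 ∧ D * C = 1 ∧ C * A = A' * C := by
  have hpow : ∀ B : Matrix (Fin n) (Fin n) F, B ^ r = l • 1 → B ^ (r * (q - 1)) = 1 := by
    intro B hB
    rw [pow_mul, hB, _root_.smul_pow, one_pow, ← hF, FiniteField.pow_card_sub_one_eq_one l hl0,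
      one_smul]
  exact ss_conj_mat A A' _ _ (ff_cast_ne_zero' hF hrq) (ff_cast_ne_zero' hF hrq) (hpow A hA)
    (hpow A' hA') (by rw [(typeII_struct hr A l hl hA).2, (typeII_struct hr A' l hl hA').2])

theorem arith (K r o e : ℕ) (hr : 2 ≤ r) (he : e = 0 ∨ e = 1)
    (h : o * r = (K - r) + (r - 1) * e) : (K - r - e) / r + r * e = o + (r - 1) * e := by
  rcases he with rfl | rfl
  · rw [mul_zero, add_zero] at h
    rw [Nat.sub_zero, mul_zero, mul_zero, add_zero, add_zero]
    exact Nat.div_eq_of_eq_mul_left (by omega) h.symm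
  · rw [mul_one] at h
    rw [mul_one, mul_one]
    have ho : 1 ≤ o := by
      rcases Nat.eq_zero_or_pos o with h0 | h0
      · rw [h0, zero_mul] at h; omega
      · exact h0
    have h1 : (o - 1) * r = o * r - r := Nat.sub_one_mul o r
    have h2 : r ≤ o * r := Nat.le_mul_of_pos_left r ho
    have h3 : K - r - 1 = (o - 1) * r := by omega
    rw [h3, Nat.mul_div_cancel _ (by omega : 0 < r)]
    omega

end Cfsg.Agent.Lib.helper18.PGL
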