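import Mathlib
import Cfsg.Agent.Lib.helper18.PGL3
set_option autoImplicit false
namespace Cfsg.Agent.Lib.helper18.PGL
open Polynomial Cfsg.Agent.Lib.helper18.RCF
open scoped MatrixGroups

set_option maxHeartbeats 1000000 in
theorem pgl_prime_order_class_count {F : Type*} [Field F] [Fintype F] {q : ℕ} (hF : Fintype.card F = q) {n r : ℕ} (hn : 2 ≤ n) (hr : r.Prime) (hrq : r ∣ q - 1) : Nat.card {C : ConjClasses (GL (Fin n) F ⧸ Subgroup.center (GL (Fin n) F)) // ∃ g : GL (Fin n) F ⧸ Subgroup.center (GL (Fin n) F), ConjClasses.mk g = C ∧ orderOf g = r} = (Nat.choose (n + r - 1) (r - 1) - r - (if r ∣ n then 1 else 0)) / r + r * (if r ∣ n then 1 else 0) := by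
  classical
  have : NeZero r := ⟨hr.ne_zero⟩
  let _ : Fintype (rootsOfUnity r F) := Fintype.ofFinite _
  have hn0 : 0 < n := by omega
  have hr2 : 2 ≤ r := hr.two_le
  have hrF : (r : F) ≠ 0 := ff_cast_ne_zero hF hrq
  have hμ : Fintype.card (rootsOfUnity r F) = r := card_roots hF hrq
  obtain ⟨γ, hγ, hgen⟩ := exists_gen hF
  have hγ0 : ((γ : F)) ≠ 0 := Units.ne_zero γ
  -- type I representatives
  have hI : ∀ a : Om (rootsOfUnity r F) n, ∃ g : GL (Fin n) F,
      (g : Matrix (Fin n) (Fin n) F) ^ r = 1 ∧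
        (g : Matrix (Fin n) (Fin n) F).charpoly = fpoly r a.1 := by
    intro a
    obtain ⟨A, hA, hc⟩ := exists_mat_fpoly r a.1 n a.2.1
    exact ⟨⟨A, A ^ (r - 1), by rw [← pow_succ', Nat.sub_add_cancel hr.pos, hA],
      by rw [← pow_succ, Nat.sub_add_cancel hr.pos, hA]⟩, hA, hc⟩
  choose gI hgI1 hgI2 using hI
  have hIord : ∀ a, orderOf (QuotientGroup.mk (gI a) :
      GL (Fin n) F ⧸ Subgroup.center (GL (Fin n) F)) = r := by
    intro a
    rw [orderOf_mk_eq_prime_iff _ r hr]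
    refine ⟨⟨1, by rw [hgI1, one_smul]⟩, ?_⟩
    rw [typeI_scalar_iff hn0 hrF _ (hgI1 a) a.1 a.2.1 (hgI2 a)]
    rintro ⟨ζ, hζ⟩
    exact a.2.2 ζ hζ
  have hker : Setoid.ker (fun a : Om (rootsOfUnity r F) n => ConjClasses.mk (QuotientGroup.mk (gI a) :
      GL (Fin n) F ⧸ Subgroup.center (GL (Fin n) F))) =
      MulAction.orbitRel (rootsOfUnity r F) (Om (rootsOfUnity r F) n) := by
    ext a a'
    rw [Setoid.ker_def, MulAction.orbitRel_apply, MulAction.mem_orbit_iff,
      ConjClasses.mk_eq_mk_iff_isConj, isConj_mk_iff,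
      typeI_pconj_iff hn0 hrF _ _ a.1 a'.1 (hgI1 a) (hgI1 a') (hgI2 a) (hgI2 a') a'.2.1]
    constructor
    · rintro ⟨c, hc⟩
      exact ⟨c, Subtype.ext hc.symm⟩
    · rintro ⟨c, hc⟩
      exact ⟨c, (congrArg Subtype.val hc).symm⟩
  have hcardI : Set.ncard (Set.range (fun a : Om (rootsOfUnity r F) n =>
      ConjClasses.mk (QuotientGroup.mk (gI a) :
      GL (Fin n) F ⧸ Subgroup.center (GL (Fin n) F)))) =
      Nat.card (Quotient (MulAction.orbitRel (rootsOfUnity r F) (Om (rootsOfUnity r F) n))) := by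
    rw [← hker, ← Nat.card_coe_set_eq]
    exact (Nat.card_congr (Setoid.quotientKerEquivRange _)).symm
  have horb := orbit_count (rootsOfUnity r F) n r hr hμ hn0
  have hK : (r + n - 1).choose n = (n + r - 1).choose (r - 1) := by
    have h1 : r + n - 1 = n + (r - 1) := by omega
    have h2 : n + r - 1 = n + (r - 1) := by omega
    rw [h1, h2, Nat.choose_symm_add]
  rw [hK, ← hcardI] at horb
  -- r-th powers
  have hnp : ∀ m : ℕ, ¬ r ∣ m → ∀ b : F, b ^ r ≠ (γ : F) ^ m := by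
    intro m hm b hb
    have hb0 : b ≠ 0 := by
      rintro rfl
      rw [zero_pow hr.ne_zero] at hb
      exact pow_ne_zero _ hγ0 hb.symm
    have h1 := gen_pow_congr hrq γ hγ hgen m 0 b hb0 (by rw [pow_zero, mul_one, hb])
    exact hm ((Nat.modEq_zero_iff_dvd).1 h1)
  -- lifting
  have hlift : ∀ g : GL (Fin n) F, orderOf (QuotientGroup.mk g :
      GL (Fin n) F ⧸ Subgroup.center (GL (Fin n) F)) = r →
      ∃ m : ℕ, (g : Matrix (Fin n) (Fin n) F) ^ r = ((γ : F)) ^ m • 1 := by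
    intro g hg
    rw [orderOf_mk_eq_prime_iff _ r hr] at hg
    obtain ⟨⟨l, hl⟩, _⟩ := hg
    have hl0 : l ≠ 0 := by
      rintro rfl
      rw [zero_smul] at hl
      have h1 : ((g ^ r : GL (Fin n) F) : Matrix (Fin n) (Fin n) F) *
          (((g ^ r)⁻¹ : GL (Fin n) F) : Matrix (Fin n) (Fin n) F) = 1 := by
        rw [← Units.val_mul, mul_inv_cancel, Units.val_one]
      rw [Units.val_pow_eq_pow_val, hl, Matrix.zero_mul] at h1
      have := congrFun (congrFun h1 ⟨0, hn0⟩) ⟨0, hn0⟩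
      simp at this
    obtain ⟨m, hm⟩ := hgen (Units.mk0 l hl0)
    refine ⟨m, ?_⟩
    rw [hl, ← Units.val_pow_eq_pow_val, ← hm, Units.val_mk0]
  -- type I coverage
  have hcovI : ∀ (g : GL (Fin n) F) (k : ℕ), orderOf (QuotientGroup.mk g :
      GL (Fin n) F ⧸ Subgroup.center (GL (Fin n) F)) = r →
      (g : Matrix (Fin n) (Fin n) F) ^ r = (((γ : F)) ^ k) ^ r • 1 →
      ConjClasses.mk (QuotientGroup.mk g : GL (Fin n) F ⧸ Subgroup.center (GL (Fin n) F)) ∈
        Set.range (fun a : Om (rootsOfUnity r F) n => ConjClasses.mk (QuotientGroup.mk (gI a) :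
          GL (Fin n) F ⧸ Subgroup.center (GL (Fin n) F))) := by
    intro g k hg hpow
    have hμ0 : ((γ : F)) ^ k ≠ 0 := pow_ne_zero _ hγ0
    have hE : ((((γ : F)) ^ k)⁻¹ • (g : Matrix (Fin n) (Fin n) F)) ^ r = 1 := by
      rw [_root_.smul_pow, hpow, smul_smul, inv_pow, inv_mul_cancel₀ (pow_ne_zero _ hμ0), one_smul]
    obtain ⟨a, hsum, hχ⟩ := exists_fpoly hF hrq _ hE
    have hns : ∀ ζ, a ζ ≠ n := by
      intro ζ hζ
      obtain ⟨b, hb⟩ := (typeI_scalar_iff hn0 hrF _ hE a hsum hχ).2 ⟨ζ, hζ⟩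
      rw [orderOf_mk_eq_prime_iff _ r hr] at hg
      apply hg.2
      refine ⟨((γ : F)) ^ k * b, ?_⟩
      rw [← smul_smul, ← hb, smul_smul, mul_inv_cancel₀ hμ0, one_smul]
    obtain ⟨a₀, ha₀⟩ : ∃ a₀ : Om (rootsOfUnity r F) n, a₀.1 = a := ⟨⟨a, hsum, hns⟩, rfl⟩
    refine ⟨a₀, ?_⟩
    show ConjClasses.mk (QuotientGroup.mk (gI a₀)) = ConjClasses.mk (QuotientGroup.mk g)
    rw [ConjClasses.mk_eq_mk_iff_isConj, isConj_mk_iff]
    apply PConj.symm
    obtain ⟨C', D, h1, h2, h3⟩ := ss_conj_mat _ _ r r hrF hrF hE (hgI1 a₀)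
      (by rw [hχ, hgI2 a₀, ha₀])
    refine ⟨C', D, ((γ : F)) ^ k, h1, h2, hμ0, ?_⟩
    rw [Matrix.mul_smul] at h3
    rw [Matrix.smul_mul, ← h3, smul_smul, mul_inv_cancel₀ hμ0, one_smul]
  have hS : Nat.card {C : ConjClasses (GL (Fin n) F ⧸ Subgroup.center (GL (Fin n) F)) //
      ∃ g : GL (Fin n) F ⧸ Subgroup.center (GL (Fin n) F), ConjClasses.mk g = C ∧ orderOf g = r} =
      Set.ncard {C : ConjClasses (GL (Fin n) F ⧸ Subgroup.center (GL (Fin n) F)) |
      ∃ g : GL (Fin n) F ⧸ Subgroup.center (GL (Fin n) F), ConjClasses.mk g = C ∧ orderOf g = r} :=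
    Nat.card_coe_set_eq _
  rw [hS]
  by_cases hdvd : r ∣ n
  · -- type II representatives
    have hII : ∀ j : Fin (r - 1), ∃ g : GL (Fin n) F,
        (g : Matrix (Fin n) (Fin n) F) ^ r = ((γ : F)) ^ ((j : ℕ) + 1) • 1 := by
      intro j
      obtain ⟨B, hB⟩ := typeII_exists hr hdvd (((γ : F)) ^ ((j : ℕ) + 1))
      have hl0 : ((γ : F)) ^ ((j : ℕ) + 1) ≠ 0 := pow_ne_zero _ hγ0
      have h1 : B * ((((γ : F)) ^ ((j : ℕ) + 1))⁻¹ • B ^ (r - 1)) = 1 := by
        rw [Matrix.mul_smul, ← pow_succ', Nat.sub_add_cancel hr.pos, hB, smul_smul,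
          inv_mul_cancel₀ hl0, one_smul]
      have h2 : ((((γ : F)) ^ ((j : ℕ) + 1))⁻¹ • B ^ (r - 1)) * B = 1 := by
        rw [Matrix.smul_mul, ← pow_succ, Nat.sub_add_cancel hr.pos, hB, smul_smul,
          inv_mul_cancel₀ hl0, one_smul]
      exact ⟨⟨B, _, h1, h2⟩, hB⟩
    choose gII hgII using hII
    have hjr : ∀ j : Fin (r - 1), ¬ r ∣ (j : ℕ) + 1 := by
      intro j hj
      have := Nat.le_of_dvd (Nat.succ_pos _) hj
      have := j.2
      omega
    have hIIord : ∀ j, orderOf (QuotientGroup.mk (gII j) :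
        GL (Fin n) F ⧸ Subgroup.center (GL (Fin n) F)) = r := by
      intro j
      rw [orderOf_mk_eq_prime_iff _ r hr]
      refine ⟨⟨_, hgII j⟩, ?_⟩
      rintro ⟨b, hb⟩
      have h1 := hgII j
      rw [hb, _root_.smul_pow, one_pow] at h1
      have h2 := congrFun (congrFun h1 ⟨0, hn0⟩) ⟨0, hn0⟩
      simp only [Matrix.smul_apply, Matrix.one_apply_eq, smul_eq_mul, mul_one] at h2
      exact hnp _ (hjr j) b h2
    have hset : {C : ConjClasses (GL (Fin n) F ⧸ Subgroup.center (GL (Fin n) F)) |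
        ∃ g : GL (Fin n) F ⧸ Subgroup.center (GL (Fin n) F), ConjClasses.mk g = C ∧ orderOf g = r} =
        Set.range (fun a : Om (rootsOfUnity r F) n => ConjClasses.mk (QuotientGroup.mk (gI a) :
          GL (Fin n) F ⧸ Subgroup.center (GL (Fin n) F))) ∪
        Set.range (fun j : Fin (r - 1) => ConjClasses.mk (QuotientGroup.mk (gII j) :
          GL (Fin n) F ⧸ Subgroup.center (GL (Fin n) F))) := by
      ext C
      constructor
      · rintro ⟨x, rfl, hx⟩
        obtain ⟨g, rfl⟩ := QuotientGroup.mk_surjective x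
        obtain ⟨m, hm⟩ := hlift g hx
        by_cases hrm : r ∣ m
        · left
          obtain ⟨k, rfl⟩ := hrm
          exact hcovI g k hx (by rw [hm, ← pow_mul, mul_comm])
        · right
          have hmod1 : 1 ≤ m % r := by
            rcases Nat.eq_zero_or_pos (m % r) with h0 | h0
            · exact absurd (Nat.dvd_of_mod_eq_zero h0) hrm
            · exact h0
          have hmod2 : m % r < r := Nat.mod_lt _ hr.pos
          refine ⟨⟨m % r - 1, by omega⟩, ?_⟩
          show ConjClasses.mk (QuotientGroup.mk (gII ⟨m % r - 1, by omega⟩)) =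
            ConjClasses.mk (QuotientGroup.mk g)
          rw [ConjClasses.mk_eq_mk_iff_isConj, isConj_mk_iff]
          apply PConj.symm
          have hB := hgII ⟨m % r - 1, by omega⟩
          have hB' : (gII ⟨m % r - 1, by omega⟩ : Matrix (Fin n) (Fin n) F) ^ r =
              ((γ : F)) ^ (m % r) • 1 := by
            rw [hB]
            congr 2
            show m % r - 1 + 1 = m % r
            omega
          have hc0 : ((γ : F)) ^ (m / r) ≠ 0 := pow_ne_zero _ hγ0
          have hpow : (((γ : F)) ^ (m / r) • (gII ⟨m % r - 1, by omega⟩ :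
              Matrix (Fin n) (Fin n) F)) ^ r = ((γ : F)) ^ m • 1 := by
            rw [_root_.smul_pow, hB', smul_smul, ← pow_mul, ← pow_add]
            congr 2
            rw [mul_comm]
            exact Nat.div_add_mod m r
          obtain ⟨C', D, h1, h2, h3⟩ := typeII_conj hF hr hrq (g : Matrix (Fin n) (Fin n) F) _
            (((γ : F)) ^ m) (pow_ne_zero _ hγ0) (hnp m hrm) hm hpow
          exact ⟨C', D, _, h1, h2, hc0, h3⟩
      · rintro (⟨a, rfl⟩ | ⟨j, rfl⟩)
        · exact ⟨_, rfl, hIord a⟩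
        · exact ⟨_, rfl, hIIord j⟩
    have hdisj : Disjoint
        (Set.range (fun a : Om (rootsOfUnity r F) n => ConjClasses.mk (QuotientGroup.mk (gI a) :
          GL (Fin n) F ⧸ Subgroup.center (GL (Fin n) F))))
        (Set.range (fun j : Fin (r - 1) => ConjClasses.mk (QuotientGroup.mk (gII j) :
          GL (Fin n) F ⧸ Subgroup.center (GL (Fin n) F)))) := by
      rw [Set.disjoint_left]
      rintro _ ⟨a, rfl⟩ ⟨j, hj⟩
      have hj' : ConjClasses.mk (QuotientGroup.mk (gII j) :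
          GL (Fin n) F ⧸ Subgroup.center (GL (Fin n) F)) = ConjClasses.mk (QuotientGroup.mk (gI a)) := hj
      rw [ConjClasses.mk_eq_mk_iff_isConj, isConj_mk_iff] at hj'
      obtain ⟨c, hc, h1⟩ := hj'.pow_eq r _ 1 hn0 (hgII j) (by rw [hgI1, one_smul])
      have h2 := gen_pow_congr hrq γ hγ hgen ((j : ℕ) + 1) 0 c hc (by rw [pow_zero, h1])
      exact hjr j ((Nat.modEq_zero_iff_dvd).1 h2)
    have hinjII : Function.Injective (fun j : Fin (r - 1) => ConjClasses.mk (QuotientGroup.mk (gII j) :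
          GL (Fin n) F ⧸ Subgroup.center (GL (Fin n) F))) := by
      intro j j' hjj
      have hjj' : ConjClasses.mk (QuotientGroup.mk (gII j) :
          GL (Fin n) F ⧸ Subgroup.center (GL (Fin n) F)) = ConjClasses.mk (QuotientGroup.mk (gII j')) := hjj
      rw [ConjClasses.mk_eq_mk_iff_isConj, isConj_mk_iff] at hjj'
      obtain ⟨c, hc, h1⟩ := hjj'.pow_eq r _ _ hn0 (hgII j) (hgII j')
      have h2 := gen_pow_congr hrq γ hγ hgen ((j : ℕ) + 1) ((j' : ℕ) + 1) c hc h1
      have h3 := Nat.ModEq.eq_of_lt_of_lt h2 (by have := j.2; omega) (by have := j'.2; omega)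
      exact Fin.ext (by omega)
    rw [hset, Set.ncard_union_eq hdisj (Set.finite_range _) (Set.finite_range _),
      ← Nat.card_coe_set_eq (Set.range (fun j : Fin (r - 1) => _)),
      Nat.card_range_of_injective hinjII, Nat.card_eq_fintype_card, Fintype.card_fin]
    rw [if_pos hdvd] at horb ⊢
    have := arith _ r _ 1 hr2 (Or.inr rfl) horb
    simp only [mul_one] at this ⊢
    exact this.symm
  · have hset : {C : ConjClasses (GL (Fin n) F ⧸ Subgroup.center (GL (Fin n) F)) |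
        ∃ g : GL (Fin n) F ⧸ Subgroup.center (GL (Fin n) F), ConjClasses.mk g = C ∧ orderOf g = r} =
        Set.range (fun a : Om (rootsOfUnity r F) n => ConjClasses.mk (QuotientGroup.mk (gI a) :
          GL (Fin n) F ⧸ Subgroup.center (GL (Fin n) F))) := by
      ext C
      constructor
      · rintro ⟨x, rfl, hx⟩
        obtain ⟨g, rfl⟩ := QuotientGroup.mk_surjective x
        obtain ⟨m, hm⟩ := hlift g hx
        by_cases hrm : r ∣ m
        · obtain ⟨k, rfl⟩ := hrm
          exact hcovI g k hx (by rw [hm, ← pow_mul, mul_comm])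
        · exact absurd (typeII_struct hr _ _ (hnp m hrm) hm).1 hdvd
      · rintro ⟨a, rfl⟩
        exact ⟨_, rfl, hIord a⟩
    rw [hset]
    rw [if_neg hdvd] at horb ⊢
    have := arith _ r _ 0 hr2 (Or.inl rfl) horb
    simp only [mul_zero, add_zero] at this ⊢
    exact this.symm

end Cfsg.Agent.Lib.helper18.PGL
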