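import Cfsg.Agent.S2352
import Cfsg.Agent.S2353
import Cfsg.Prelude.Def_Classical
import Mathlib

set_option autoImplicit false

namespace Cfsg.Agent.Lib.helper18.LawEmb

open Polynomial Cfsg.Agent.S2353
open scoped Matrix commutatorElement

/-! ### word maps and laws -/

theorem lift_comp {H K : Type*} [Group H] [Group K] (φ : H →* K) (f : ℕ → H) (w : FreeGroup ℕ) :
    FreeGroup.lift (fun i => φ (f i)) w = φ (FreeGroup.lift f w) := by
  have h : FreeGroup.lift (fun i => φ (f i)) = φ.comp (FreeGroup.lift f) := by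
    apply FreeGroup.ext_hom
    intro a
    simp
  rw [h, MonoidHom.comp_apply]

theorem law_transport {G K : Type*} [Group G] [Group K] (w : FreeGroup ℕ) (e : G ≃* K)
    (hlaw : ∀ f : ℕ → G, FreeGroup.lift f w = 1) (f : ℕ → K) : FreeGroup.lift f w = 1 := by
  have h : FreeGroup.lift f w = e.toMonoidHom (FreeGroup.lift (fun i => e.symm (f i)) w) := by
    rw [← lift_comp]
    simp
  rw [h, hlaw, map_one]

theorem law_center {K : Type*} [Group K] (w : FreeGroup ℕ)
    (hlaw : ∀ f : ℕ → K ⧸ Subgroup.center K, FreeGroup.lift f w = 1)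
    {H : Type*} [Group H] (ψ : H →* K) (hψ : Function.Injective ψ) (f : ℕ → H) :
    FreeGroup.lift f w ∈ Subgroup.center H := by
  have h1 := hlaw (fun i => ((QuotientGroup.mk' (Subgroup.center K)).comp ψ) (f i))
  rw [lift_comp, MonoidHom.comp_apply] at h1
  have h2 : ψ (FreeGroup.lift f w) ∈ Subgroup.center K := (QuotientGroup.eq_one_iff _).1 h1
  rw [Subgroup.mem_center_iff]
  intro s
  apply hψ
  rw [map_mul, map_mul]
  exact (Subgroup.mem_center_iff.1 h2) (ψ s)

theorem law_sub {A : Type*} [Group A] (K : Subgroup A) (w : FreeGroup ℕ)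
    (hlaw : ∀ f : ℕ → K ⧸ Subgroup.center K, FreeGroup.lift f w = 1)
    {H : Type*} [Group H] (Φ : H →* A) (hΦ : Function.Injective Φ) (f : ℕ → H)
    (hf : ∀ i, Φ (f i) ∈ K) (s : H) (hs : Φ s ∈ K) :
    s * FreeGroup.lift f w = FreeGroup.lift f w * s := by
  have hinj : Function.Injective (Φ.subgroupComap K) := by
    intro x y hxy
    apply Subtype.ext
    apply hΦ
    exact congrArg Subtype.val hxy
  have h1 := law_center w hlaw (Φ.subgroupComap K) hinj (fun i => ⟨f i, hf i⟩)
  have h2 := (Subgroup.mem_center_iff.1 h1) ⟨s, hs⟩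
  have h3 := congrArg Subtype.val h2
  have h4 : ((FreeGroup.lift (fun i => (⟨f i, hf i⟩ : K.comap Φ)) w : K.comap Φ) : H) =
      FreeGroup.lift f w := by
    have := lift_comp (K.comap Φ).subtype (fun i => (⟨f i, hf i⟩ : K.comap Φ)) w
    simpa using this.symm
  rw [Subgroup.coe_mul, Subgroup.coe_mul, h4] at h3
  exact h3

theorem rank_bound (w : FreeGroup ℕ) (N₁ : ℕ)
    (hN₁ : ∀ n : ℕ, N₁ ≤ n → ∃ f : ℕ → alternatingGroup (Fin n), FreeGroup.lift f w ≠ 1)
    {K : Type*} [Group K] (hlaw : ∀ f : ℕ → K ⧸ Subgroup.center K, FreeGroup.lift f w = 1)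
    (n : ℕ) (ψ : alternatingGroup (Fin n) →* K) (hψ : Function.Injective ψ) (h4 : 4 ≤ n) :
    n < N₁ := by
  by_contra hcon
  obtain ⟨f, hf⟩ := hN₁ n (not_lt.1 hcon)
  have h1 := law_center w hlaw ψ hψ f
  rw [alternatingGroup.center_eq_bot (by rw [Nat.card_fin]; exact h4), Subgroup.mem_bot] at h1
  exact hf h1

theorem map_mem_commutator {G H : Type*} [Group G] [Group H] (f : G →* H) {x : G}
    (hx : x ∈ commutator G) : f x ∈ commutator H := by
  have h1 : f x ∈ (commutator G).map f := Subgroup.mem_map_of_mem f hx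
  rw [commutator_def, Subgroup.map_commutator] at h1
  rw [commutator_def]
  exact Subgroup.commutator_mono le_top le_top h1

theorem rank_bound_comm (w : FreeGroup ℕ) (N₁ : ℕ)
    (hN₁ : ∀ n : ℕ, N₁ ≤ n → ∃ f : ℕ → alternatingGroup (Fin n), FreeGroup.lift f w ≠ 1)
    {O : Type*} [Group O]
    (hlaw : ∀ f : ℕ → (commutator O) ⧸ Subgroup.center (commutator O), FreeGroup.lift f w = 1)
    (n : ℕ) (ψ₀ : alternatingGroup (Fin n) →* O) (hψ₀ : Function.Injective ψ₀) (h5 : 5 ≤ n) :
    n < N₁ := by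
  have hmem : ∀ x, ψ₀ x ∈ commutator O := by
    intro x
    apply map_mem_commutator
    rw [commutator_alternatingGroup_eq_top (by rw [Nat.card_fin]; exact h5)]
    exact Subgroup.mem_top x
  exact rank_bound w N₁ hN₁ hlaw n (ψ₀.codRestrict _ hmem)
    (fun a b hab => hψ₀ (congrArg Subtype.val hab)) (by omega)

theorem pw_ne_zero (F : Type*) [Field F] (w : FreeGroup ℕ) (hw : w ≠ 1) :
    (Phi F w).1 1 0 ≠ 0 := by
  have hne : w.toWord ≠ [] := fun h => hw (FreeGroup.toWord_eq_nil_iff.1 h)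
  rw [Phi_eq_prod]
  exact entry_ne_zero _ FreeGroup.isReduced_toWord hne

theorem pw_deg (F : Type*) [Field F] (w : FreeGroup ℕ) :
    ((Phi F w).1 1 0).natDegree ≤ ((Phi ℤ w).1 1 0).natDegree := by
  have h2 : (Phi F w).1 1 0 = ((Phi ℤ w).1 1 0).map (Int.castRingHom F) := by
    have h := DFunLike.congr_fun (Phi_map (Int.castRingHom F)) w
    rw [← h, MonoidHom.comp_apply, Matrix.SpecialLinearGroup.map_apply_coe]
    simp
  rw [h2]
  exact Polynomial.natDegree_map_le

theorem sl2_witness {F : Type*} [Field F] (w : FreeGroup ℕ) (c : F)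
    (hc : ((Phi F w).1 1 0).eval c ≠ 0) :
    uM (1 : F) * FreeGroup.lift (fun i => uM (c ^ (i + 1)) * lM (c ^ (i + 1))) w ≠
      FreeGroup.lift (fun i => uM (c ^ (i + 1)) * lM (c ^ (i + 1))) w * uM (1 : F) := by
  have hΨ : FreeGroup.lift (fun i => uM (c ^ (i + 1)) * lM (c ^ (i + 1))) =
      (Matrix.SpecialLinearGroup.map (Polynomial.evalRingHom c)).comp (Phi F) := by
    apply FreeGroup.ext_hom
    intro i
    simp [Phi, gen, map_uM, map_lM]
  rw [hΨ, MonoidHom.comp_apply]
  obtain ⟨g, hg⟩ : ∃ g, g = Matrix.SpecialLinearGroup.map (Polynomial.evalRingHom c) (Phi F w) :=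
    ⟨_, rfl⟩
  have h5 : g.1 1 0 = ((Phi F w).1 1 0).eval c := by
    rw [hg, Matrix.SpecialLinearGroup.map_apply_coe]
    simp
  rw [← hg]
  intro h
  have h6 : (uM (1 : F) * g).1 1 1 = (g * uM (1 : F)).1 1 1 := by rw [h]
  rw [Matrix.SpecialLinearGroup.coe_mul, Matrix.SpecialLinearGroup.coe_mul] at h6
  simp [uM, Matrix.mul_apply, Fin.sum_univ_two] at h6
  exact hc (h5 ▸ h6)

theorem field_bound_type (w : FreeGroup ℕ) (hw : w ≠ 1) {K : Type*} [Group K]
    (hlaw : ∀ f : ℕ → K ⧸ Subgroup.center K, FreeGroup.lift f w = 1)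
    (F : Type*) [Field F] [Fintype F]
    (Φ : Matrix.SpecialLinearGroup (Fin 2) F →* K) (hΦ : Function.Injective Φ) :
    Fintype.card F ≤ ((Phi ℤ w).1 1 0).natDegree := by
  by_contra hcon
  have h3 : ((Phi F w).1 1 0).natDegree < Fintype.card F :=
    lt_of_le_of_lt (pw_deg F w) (not_le.1 hcon)
  obtain ⟨c, hc⟩ := Polynomial.exists_eval_ne_zero_of_natDegree_lt_card _ (pw_ne_zero F w hw)
    (by rw [Cardinal.mk_fintype]; exact_mod_cast h3)
  have h1 := law_center w hlaw Φ hΦ (fun i => uM (c ^ (i + 1)) * lM (c ^ (i + 1)))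
  exact sl2_witness w c hc ((Subgroup.mem_center_iff.1 h1) (uM 1))

theorem field_sub (w : FreeGroup ℕ) {A : Type*} [Group A] (K : Subgroup A)
    (hlaw : ∀ f : ℕ → K ⧸ Subgroup.center K, FreeGroup.lift f w = 1)
    (F : Type*) [Field F]
    (Φ : Matrix.SpecialLinearGroup (Fin 2) F →* A) (hΦ : Function.Injective Φ)
    (T : F → Prop) (hT : ∀ t, T t → Φ (uM t) ∈ K ∧ Φ (lM t) ∈ K) (c : F)
    (h1 : T 1) (hTc : ∀ i : ℕ, T (c ^ (i + 1))) (hc : ((Phi F w).1 1 0).eval c ≠ 0) : False := by
  have hf : ∀ i : ℕ, Φ (uM (c ^ (i + 1)) * lM (c ^ (i + 1))) ∈ K := by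
    intro i
    rw [map_mul]
    exact K.mul_mem (hT _ (hTc i)).1 (hT _ (hTc i)).2
  exact sl2_witness w c hc (law_sub K w hlaw Φ hΦ _ hf (uM 1) (hT 1 h1).1)


/-! ### rectangular embeddings of matrix monoids -/

section Theta

variable {ι κ : Type*} [Fintype ι] [Fintype κ] [DecidableEq ι] [DecidableEq κ]
  {F : Type*} [CommRing F]

/-- the embedding `A ↦ 1 + V (A - 1) V'` for `V' V = 1` -/
def theta (V : Matrix ι κ F) (V' : Matrix κ ι F) (h : V' * V = 1) :
    Matrix κ κ F →* Matrix ι ι F where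
  toFun A := 1 + V * (A - 1) * V'
  map_one' := by simp
  map_mul' A B := by
    have key : V * (A - 1) * V' * (V * (B - 1) * V') = V * ((A - 1) * (B - 1)) * V' := by
      calc V * (A - 1) * V' * (V * (B - 1) * V')
          = V * (A - 1) * (V' * V) * (B - 1) * V' := by simp only [Matrix.mul_assoc]
        _ = V * ((A - 1) * (B - 1)) * V' := by
            rw [h, Matrix.mul_one]
            simp only [Matrix.mul_assoc]
    have h2 : A * B - 1 = (A - 1) + (B - 1) + (A - 1) * (B - 1) := by noncomm_ring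
    have expand : ∀ X Y : Matrix ι ι F, (1 + X) * (1 + Y) = 1 + (X + Y + X * Y) := by
      intro X Y
      noncomm_ring
    rw [expand, key, h2, Matrix.mul_add, Matrix.mul_add, Matrix.add_mul, Matrix.add_mul]

theorem theta_apply (V : Matrix ι κ F) (V' : Matrix κ ι F) (h : V' * V = 1) (A : Matrix κ κ F) :
    theta V V' h A = 1 + V * (A - 1) * V' := rfl

theorem det_theta (V : Matrix ι κ F) (V' : Matrix κ ι F) (h : V' * V = 1) (A : Matrix κ κ F) :
    (theta V V' h A).det = A.det := by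
  rw [theta_apply, Matrix.mul_assoc, Matrix.det_one_add_mul_comm, Matrix.mul_assoc, h,
    Matrix.mul_one]
  simp

theorem theta_injective (V : Matrix ι κ F) (V' : Matrix κ ι F) (h : V' * V = 1) :
    Function.Injective (theta V V' h) := by
  have h1 : ∀ C : Matrix κ κ F, V' * (theta V V' h C) * V = C := by
    intro C
    rw [theta_apply, Matrix.mul_add, Matrix.add_mul, Matrix.mul_one, h]
    have h3 : V' * (V * (C - 1) * V') * V = (V' * V) * (C - 1) * (V' * V) := by
      simp only [Matrix.mul_assoc]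
    rw [h3, h, Matrix.one_mul, Matrix.mul_one]
    abel
  intro A B hAB
  calc A = V' * (theta V V' h A) * V := (h1 A).symm
    _ = V' * (theta V V' h B) * V := by rw [hAB]
    _ = B := h1 B

/-- the 0/1 matrix of a map of index types -/
def Umat (F : Type*) [CommRing F] {ι κ : Type*} [DecidableEq ι] (i : κ → ι) : Matrix ι κ F :=
  Matrix.of fun x a => if x = i a then 1 else 0

theorem Umat_mul (i : κ → ι) (hi : Function.Injective i) : (Umat F i)ᵀ * Umat F i = 1 := by
  ext a b
  simp only [Matrix.mul_apply, Matrix.transpose_apply, Umat, Matrix.of_apply, Matrix.one_apply,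
    ite_mul, one_mul, zero_mul]
  rw [Finset.sum_ite_eq' Finset.univ (i a)]
  simp [hi.eq_iff]

/-- block embedding along an injection of index types -/
def thetaU (F : Type*) [CommRing F] {ι κ : Type*} [Fintype ι] [Fintype κ] [DecidableEq ι]
    [DecidableEq κ] (i : κ → ι) (hi : Function.Injective i) : Matrix κ κ F →* Matrix ι ι F :=
  theta (Umat F i) (Umat F i)ᵀ (Umat_mul i hi)

theorem thetaU_apply (i : κ → ι) (hi : Function.Injective i) (G : Matrix κ κ F) :
    thetaU F i hi G = 1 + Umat F i * (G - 1) * (Umat F i)ᵀ := rfl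

theorem thetaU_transpose (i : κ → ι) (hi : Function.Injective i) (G : Matrix κ κ F) :
    (thetaU F i hi G)ᵀ = thetaU F i hi Gᵀ := by
  rw [thetaU_apply, thetaU_apply, Matrix.transpose_add, Matrix.transpose_one, Matrix.transpose_mul,
    Matrix.transpose_mul, Matrix.transpose_transpose, Matrix.transpose_sub, Matrix.transpose_one,
    Matrix.mul_assoc]

theorem thetaU_map (i : κ → ι) (hi : Function.Injective i) (σ : F →+* F) (G : Matrix κ κ F) :
    (thetaU F i hi G).map σ = thetaU F i hi (G.map σ) := by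
  have hU : (Umat F i).map σ = Umat F i := by
    ext x a
    simp only [Matrix.map_apply, Umat, Matrix.of_apply]
    split_ifs <;> simp
  have hU' : ((Umat F i)ᵀ).map σ = (Umat F i)ᵀ := by
    ext a x
    simp only [Matrix.map_apply, Umat, Matrix.of_apply, Matrix.transpose_apply]
    split_ifs <;> simp
  have h1 : (G - 1).map σ = G.map σ - 1 := by
    have h := map_sub σ.mapMatrix G 1
    rw [map_one] at h
    exact h
  have h2 : (1 + Umat F i * (G - 1) * (Umat F i)ᵀ).map σ =
      1 + (Umat F i * (G - 1) * (Umat F i)ᵀ).map σ := by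
    have h := map_add σ.mapMatrix (1 : Matrix ι ι F) (Umat F i * (G - 1) * (Umat F i)ᵀ)
    rw [map_one] at h
    exact h
  rw [thetaU_apply, thetaU_apply, h2, Matrix.map_mul, Matrix.map_mul, hU, hU', h1]

theorem det_thetaU (i : κ → ι) (hi : Function.Injective i) (G : Matrix κ κ F) :
    (thetaU F i hi G).det = G.det :=
  det_theta (Umat F i) (Umat F i)ᵀ (Umat_mul i hi) G

theorem thetaU_injective (i : κ → ι) (hi : Function.Injective i) :
    Function.Injective (thetaU F i hi) :=
  theta_injective (Umat F i) (Umat F i)ᵀ (Umat_mul i hi)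

end Theta

/-! ### Hermitian forms -/

theorem herm_pres {ι : Type*} [Fintype ι] [DecidableEq ι] {F : Type*} [Field F] (q : ℕ)
    (σ : F →+* F) (hσ : ∀ x, σ x = x ^ q) (M : Matrix ι ι F) (hM : Mᵀ * M.map σ = 1)
    (u v : ι → F) :
    ∑ i, Matrix.mulVec M u i * (Matrix.mulVec M v i) ^ q = ∑ i, u i * (v i) ^ q := by
  have h1 : ∀ i, (Matrix.mulVec M v i) ^ q = Matrix.mulVec (M.map σ) (σ ∘ v) i := by
    intro i
    rw [← hσ, RingHom.map_mulVec]
  have h2 : ∑ i, u i * (v i) ^ q = dotProduct (σ ∘ v) u := by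
    rw [dotProduct_comm]
    exact Finset.sum_congr rfl (fun i _ => by rw [Function.comp_apply, hσ])
  simp only [h1]
  rw [h2]
  change dotProduct (Matrix.mulVec M u) (Matrix.mulVec (M.map σ) (σ ∘ v)) = _
  rw [dotProduct_comm, Matrix.dotProduct_mulVec, ← Matrix.mulVec_transpose, Matrix.mulVec_mulVec,
    hM, Matrix.one_mulVec]

theorem thetaU_unitary {ι κ : Type*} [Fintype ι] [Fintype κ] [DecidableEq ι] [DecidableEq κ]
    {F : Type*} [Field F] (i : κ → ι) (hi : Function.Injective i) (q : ℕ) (σ : F →+* F)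
    (hσ : ∀ x, σ x = x ^ q) (G : Matrix κ κ F) (hG : Gᵀ * G.map σ = 1) (u v : ι → F) :
    ∑ x, Matrix.mulVec (thetaU F i hi G) u x * (Matrix.mulVec (thetaU F i hi G) v x) ^ q =
      ∑ x, u x * (v x) ^ q := by
  apply herm_pres q σ hσ
  rw [thetaU_transpose, thetaU_map, ← map_mul, hG, map_one]

theorem conj_unitary {κ : Type*} [Fintype κ] [DecidableEq κ] {F : Type*} [Field F]
    (σ : F →+* F) (P P' : Matrix κ κ F) (h : P' * P = 1) (g : Matrix κ κ F)
    (hg : gᵀ * (Pᵀ * P.map σ) * g.map σ = Pᵀ * P.map σ) :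
    (theta P P' h g)ᵀ * (theta P P' h g).map σ = 1 := by
  have hPP' : P * P' = 1 := mul_eq_one_comm.1 h
  have hG : theta P P' h g = P * g * P' := by
    rw [theta_apply, Matrix.mul_sub, Matrix.sub_mul, Matrix.mul_one, hPP']
    abel
  rw [hG, Matrix.transpose_mul, Matrix.transpose_mul, Matrix.map_mul, Matrix.map_mul]
  have h1 : P'ᵀ * (gᵀ * Pᵀ) * (P.map σ * g.map σ * P'.map σ) =
      P'ᵀ * (gᵀ * (Pᵀ * P.map σ) * g.map σ) * P'.map σ := by
    simp only [Matrix.mul_assoc]
  rw [h1, hg]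
  have h2 : P'ᵀ * (Pᵀ * P.map σ) * P'.map σ = (P * P')ᵀ * (P * P').map σ := by
    rw [Matrix.transpose_mul, Matrix.map_mul]
    simp only [Matrix.mul_assoc]
  rw [h2, hPP', Matrix.transpose_one, Matrix.one_mul]
  exact Matrix.map_one σ (map_zero σ) (map_one σ)

/-! ### permutation matrices -/

theorem perm_mulVec {n : Type*} [Fintype n] [DecidableEq n] {R : Type*} [CommRing R]
    (σ : Equiv.Perm n) (v : n → R) :
    Matrix.mulVec ((Matrix.permMatrixHom : Equiv.Perm n →* Matrix n n R) σ) v =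
      v ∘ (σ⁻¹ : Equiv.Perm n) := by
  rw [Matrix.permMatrixHom_apply, Matrix.permMatrix_mulVec]

theorem perm_injective {n : Type*} [Fintype n] [DecidableEq n] {R : Type*} [CommRing R]
    [Nontrivial R] :
    Function.Injective (Matrix.permMatrixHom : Equiv.Perm n →* Matrix n n R) := by
  intro σ τ h
  ext x
  have h1 := congrFun (congrArg (fun M : Matrix n n R =>
    Matrix.mulVec M (fun y => if y = x then (1 : R) else 0)) h) (σ x)
  simp only [perm_mulVec, Function.comp_apply] at h1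
  by_contra hne
  have h2 : ¬ (τ⁻¹ (σ x) = x) := fun h2 => hne (Equiv.Perm.inv_eq_iff_eq.1 h2)
  have h3 : (σ⁻¹ : Equiv.Perm n) (σ x) = x := by simp
  rw [h3, if_pos rfl, if_neg h2] at h1
  exact one_ne_zero h1

theorem perm_det {n : Type*} [Fintype n] [DecidableEq n] {R : Type*} [CommRing R]
    (σ : alternatingGroup n) :
    ((Matrix.permMatrixHom : Equiv.Perm n →* Matrix n n R) σ.1).det = 1 := by
  rw [Matrix.permMatrixHom_apply, Matrix.det_permutation, Equiv.Perm.sign_inv,
    Equiv.Perm.mem_alternatingGroup.1 σ.2]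
  simp

/-! ### homs into `SL` -/

/-- lift a matrix-valued hom with determinant one to `SL` -/
def slLift {H : Type*} [Group H] {ι : Type*} [Fintype ι] [DecidableEq ι] {R : Type*}
    [CommRing R] (f : H →* Matrix ι ι R) (hdet : ∀ h, (f h).det = 1) :
    H →* Matrix.SpecialLinearGroup ι R :=
  MonoidHom.mk' (fun h => (⟨f h, hdet h⟩ : Matrix.SpecialLinearGroup ι R)) (by
    intro a b
    apply Subtype.ext
    exact map_mul f a b)

theorem slLift_coe {H : Type*} [Group H] {ι : Type*} [Fintype ι] [DecidableEq ι] {R : Type*}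
    [CommRing R] (f : H →* Matrix ι ι R) (hdet : ∀ h, (f h).det = 1) (h : H) :
    ((slLift f hdet h) : Matrix ι ι R) = f h := rfl

theorem slLift_injective {H : Type*} [Group H] {ι : Type*} [Fintype ι] [DecidableEq ι]
    {R : Type*} [CommRing R] (f : H →* Matrix ι ι R) (hdet : ∀ h, (f h).det = 1)
    (hf : Function.Injective f) : Function.Injective (slLift f hdet) := by
  intro a b hab
  exact hf (congrArg Subtype.val hab)

/-- the coercion `SL → Mat` as a hom -/
def slCoe (ι : Type*) [Fintype ι] [DecidableEq ι] (R : Type*) [CommRing R] :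
    Matrix.SpecialLinearGroup ι R →* Matrix ι ι R :=
  (Units.coeHom (Matrix ι ι R)).comp Matrix.SpecialLinearGroup.toGL

theorem slCoe_apply {ι : Type*} [Fintype ι] [DecidableEq ι] {R : Type*} [CommRing R]
    (g : Matrix.SpecialLinearGroup ι R) : slCoe ι R g = g.1 := rfl

theorem slCoe_injective {ι : Type*} [Fintype ι] [DecidableEq ι] {R : Type*} [CommRing R] :
    Function.Injective (slCoe ι R) := fun _ _ h => Subtype.ext h


/-! ### the hom `A ↦ diag(A, A⁻ᵀ)` -/

section Rho

variable {κ : Type*} [Fintype κ] [DecidableEq κ] {F : Type*} [CommRing F]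

/-- `A ↦ diag(A, A⁻ᵀ)` -/
def rho0 (κ : Type*) [Fintype κ] [DecidableEq κ] (F : Type*) [CommRing F] :
    Matrix.GeneralLinearGroup κ F →* Matrix (κ ⊕ κ) (κ ⊕ κ) F where
  toFun A := Matrix.fromBlocks (A : Matrix κ κ F) 0 0
    ((A⁻¹ : Matrix.GeneralLinearGroup κ F) : Matrix κ κ F)ᵀ
  map_one' := by simp [Matrix.fromBlocks_one]
  map_mul' A B := by
    rw [Matrix.fromBlocks_multiply]
    simp [Matrix.transpose_mul]

theorem rho0_apply (A : Matrix.GeneralLinearGroup κ F) :
    rho0 κ F A = Matrix.fromBlocks (A : Matrix κ κ F) 0 0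
      ((A⁻¹ : Matrix.GeneralLinearGroup κ F) : Matrix κ κ F)ᵀ := rfl

theorem rho0_injective : Function.Injective (rho0 κ F) := by
  intro A B h
  rw [rho0_apply, rho0_apply, Matrix.fromBlocks_inj] at h
  exact Units.ext h.1

theorem rho_dot (A : Matrix.GeneralLinearGroup κ F) (x y : κ → F) :
    ∑ i, Matrix.mulVec (A : Matrix κ κ F) x i *
      Matrix.mulVec (((A⁻¹ : Matrix.GeneralLinearGroup κ F) : Matrix κ κ F)ᵀ) y i
      = ∑ i, x i * y i := by
  change dotProduct (Matrix.mulVec (A : Matrix κ κ F) x)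
    (Matrix.mulVec (((A⁻¹ : Matrix.GeneralLinearGroup κ F) : Matrix κ κ F)ᵀ) y) = dotProduct x y
  rw [Matrix.dotProduct_mulVec, Matrix.vecMul_transpose, Matrix.mulVec_mulVec, ← Units.val_mul,
    inv_mul_cancel, Units.val_one, Matrix.one_mulVec]

/-- the hyperbolic part of the quadratic forms -/
def plusPart (x : κ ⊕ κ → F) : F := ∑ i, x (.inl i) * x (.inr i)

theorem plusPart_rho (A : Matrix.GeneralLinearGroup κ F) (x : κ ⊕ κ → F) :
    plusPart (Matrix.mulVec (rho0 κ F A) x) = plusPart x := by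
  have h : Matrix.mulVec (rho0 κ F A) x = Sum.elim (Matrix.mulVec (A : Matrix κ κ F) (x ∘ Sum.inl))
      (Matrix.mulVec (((A⁻¹ : Matrix.GeneralLinearGroup κ F) : Matrix κ κ F)ᵀ) (x ∘ Sum.inr)) := by
    rw [rho0_apply, Matrix.fromBlocks_mulVec]
    simp
  unfold plusPart
  rw [h]
  simp only [Sum.elim_inl, Sum.elim_inr]
  rw [rho_dot]
  rfl

theorem rho0_mem_sp (A : Matrix.GeneralLinearGroup κ F) :
    rho0 κ F A ∈ Matrix.symplecticGroup κ F := by
  have e1 : (A : Matrix κ κ F) * ((A⁻¹ : Matrix.GeneralLinearGroup κ F) : Matrix κ κ F) = 1 := by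
    rw [← Units.val_mul, mul_inv_cancel, Units.val_one]
  have e2 : ((A⁻¹ : Matrix.GeneralLinearGroup κ F) : Matrix κ κ F)ᵀ * (A : Matrix κ κ F)ᵀ = 1 := by
    rw [← Matrix.transpose_mul, e1, Matrix.transpose_one]
  rw [SymplecticGroup.mem_iff, rho0_apply, Matrix.J, Matrix.fromBlocks_transpose,
    Matrix.fromBlocks_multiply, Matrix.fromBlocks_multiply]
  simp only [Matrix.mul_zero, Matrix.zero_mul, Matrix.mul_one, Matrix.transpose_zero,
    Matrix.transpose_transpose, add_zero, zero_add, Matrix.mul_neg, Matrix.neg_mul, e1, e2, neg_zero]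

end Rho

section Blocks

variable {α β : Type*} [Fintype α] [Fintype β] [DecidableEq α] [DecidableEq β]
  {F : Type*} [CommRing F]

/-- `M ↦ diag(1, M)` -/
def blockR (α β : Type*) [Fintype α] [Fintype β] [DecidableEq α] [DecidableEq β]
    (F : Type*) [CommRing F] : Matrix β β F →* Matrix (α ⊕ β) (α ⊕ β) F where
  toFun M := Matrix.fromBlocks 1 0 0 M
  map_one' := Matrix.fromBlocks_one
  map_mul' A B := by
    rw [Matrix.fromBlocks_multiply]
    simp

/-- `M ↦ diag(M, 1)` -/
def blockL (α β : Type*) [Fintype α] [Fintype β] [DecidableEq α] [DecidableEq β]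
    (F : Type*) [CommRing F] : Matrix α α F →* Matrix (α ⊕ β) (α ⊕ β) F where
  toFun M := Matrix.fromBlocks M 0 0 1
  map_one' := Matrix.fromBlocks_one
  map_mul' A B := by
    rw [Matrix.fromBlocks_multiply]
    simp

theorem blockR_mulVec (M : Matrix β β F) (v : α ⊕ β → F) :
    Matrix.mulVec (blockR α β F M) v = Sum.elim (v ∘ Sum.inl) (Matrix.mulVec M (v ∘ Sum.inr)) := by
  change Matrix.mulVec (Matrix.fromBlocks 1 0 0 M) v = _
  rw [Matrix.fromBlocks_mulVec]
  simp

theorem blockL_mulVec (M : Matrix α α F) (v : α ⊕ β → F) :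
    Matrix.mulVec (blockL α β F M) v = Sum.elim (Matrix.mulVec M (v ∘ Sum.inl)) (v ∘ Sum.inr) := by
  change Matrix.mulVec (Matrix.fromBlocks M 0 0 1) v = _
  rw [Matrix.fromBlocks_mulVec]
  simp

theorem blockR_injective : Function.Injective (blockR α β F) := by
  intro A B h
  change Matrix.fromBlocks 1 0 0 A = Matrix.fromBlocks 1 0 0 B at h
  rw [Matrix.fromBlocks_inj] at h
  exact h.2.2.2

theorem blockL_injective : Function.Injective (blockL α β F) := by
  intro A B h
  change Matrix.fromBlocks A 0 0 1 = Matrix.fromBlocks B 0 0 1 at h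
  rw [Matrix.fromBlocks_inj] at h
  exact h.1

end Blocks

/-! ### isometry groups -/

theorem mem_iso_iff {ι : Type} [Fintype ι] [DecidableEq ι] (F : Type*) [Field F]
    (Q : (ι → F) → F) (g : Matrix.GeneralLinearGroup ι F) :
    g ∈ Cfsg.isometryGroup F Q ↔ ∀ u : ι → F, Q (Matrix.mulVec (g : Matrix ι ι F) u) = Q u :=
  ⟨fun h u => h u u, fun h u _ => h u⟩

theorem mem_SU_iff (n : ℕ) (F : Type*) [Field F] (q : ℕ)
    (g : Matrix.SpecialLinearGroup (Fin n) F) :
    g ∈ Cfsg.SU n F q ↔ ∀ u v : Fin n → F,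
      ∑ i, Matrix.mulVec g.1 u i * (Matrix.mulVec g.1 v i) ^ q = ∑ i, u i * v i ^ q := Iff.rfl

theorem inj_units_cod {G M : Type*} [Group G] [Monoid M] (f : G →* M)
    (hf : Function.Injective f) (S : Subgroup Mˣ) (h : ∀ x, f.toHomUnits x ∈ S) :
    Function.Injective (f.toHomUnits.codRestrict S h) := by
  intro a b hab
  apply hf
  exact congrArg (fun x : S => ((x : Mˣ) : M)) hab

/-- hom into the isometry group of the plus form -/
def rhoPlus (m : ℕ) (F : Type*) [Field F] :
    Matrix.GeneralLinearGroup (Fin m) F →* Cfsg.isometryGroup F (Cfsg.quadFormPlus m F) :=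
  (rho0 (Fin m) F).toHomUnits.codRestrict _ (fun A => by
    rw [mem_iso_iff]
    intro u
    exact plusPart_rho A u)

theorem rhoPlus_injective (m : ℕ) (F : Type*) [Field F] : Function.Injective (rhoPlus m F) :=
  inj_units_cod _ rho0_injective _ _

/-- hom into the isometry group of the odd form -/
def rhoOdd (m : ℕ) (F : Type*) [Field F] :
    Matrix.GeneralLinearGroup (Fin m) F →* Cfsg.isometryGroup F (Cfsg.quadFormOdd m F) :=
  ((blockR Unit (Fin m ⊕ Fin m) F).comp (rho0 (Fin m) F)).toHomUnits.codRestrict _ (fun A => by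
    rw [mem_iso_iff]
    intro u
    change Cfsg.quadFormOdd m F (Matrix.mulVec (blockR Unit (Fin m ⊕ Fin m) F (rho0 (Fin m) F A)) u)
      = Cfsg.quadFormOdd m F u
    rw [blockR_mulVec]
    have h := plusPart_rho A (u ∘ Sum.inr)
    unfold plusPart at h
    unfold Cfsg.quadFormOdd
    simp only [Sum.elim_inl, Sum.elim_inr, Function.comp_apply] at h ⊢
    rw [h])

theorem rhoOdd_injective (m : ℕ) (F : Type*) [Field F] : Function.Injective (rhoOdd m F) :=
  inj_units_cod _ (blockR_injective.comp rho0_injective) _ _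

/-- hom into the isometry group of the minus form -/
def rhoMinus (m : ℕ) (F : Type*) [Field F] (a b : F) :
    Matrix.GeneralLinearGroup (Fin m) F →* Cfsg.isometryGroup F (Cfsg.quadFormMinus m F a b) :=
  ((blockL (Fin m ⊕ Fin m) (Fin 2) F).comp (rho0 (Fin m) F)).toHomUnits.codRestrict _ (fun A => by
    rw [mem_iso_iff]
    intro u
    change Cfsg.quadFormMinus m F a b
      (Matrix.mulVec (blockL (Fin m ⊕ Fin m) (Fin 2) F (rho0 (Fin m) F A)) u)
      = Cfsg.quadFormMinus m F a b u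
    rw [blockL_mulVec]
    have h := plusPart_rho A (u ∘ Sum.inl)
    unfold plusPart at h
    unfold Cfsg.quadFormMinus
    simp only [Sum.elim_inl, Sum.elim_inr, Function.comp_apply] at h ⊢
    rw [h])

theorem rhoMinus_injective (m : ℕ) (F : Type*) [Field F] (a b : F) :
    Function.Injective (rhoMinus m F a b) :=
  inj_units_cod _ (blockL_injective.comp rho0_injective) _ _

/-- hom into the symplectic group -/
def rhoSp (m : ℕ) (F : Type*) [Field F] :
    Matrix.GeneralLinearGroup (Fin m) F →* Matrix.symplecticGroup (Fin m) F :=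
  (rho0 (Fin m) F).codRestrict _ (fun A => rho0_mem_sp A)

theorem rhoSp_injective (m : ℕ) (F : Type*) [Field F] : Function.Injective (rhoSp m F) := by
  intro a b hab
  exact rho0_injective (congrArg Subtype.val hab)

/-! ### unipotents are commutators in `GL₂` -/

theorem unip_mem_comm {F : Type*} [Field F] (d : F) (hd0 : d ≠ 0) (hd1 : d ≠ 1) (t : F) :
    Matrix.SpecialLinearGroup.toGL (uM t) ∈ commutator (Matrix.GeneralLinearGroup (Fin 2) F) ∧
    Matrix.SpecialLinearGroup.toGL (lM t) ∈ commutator (Matrix.GeneralLinearGroup (Fin 2) F) := by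
  have hd : d - 1 ≠ 0 := sub_ne_zero.2 hd1
  obtain ⟨s, hs⟩ : ∃ s, t = (d - 1) * s := ⟨t / (d - 1), by field_simp⟩
  obtain ⟨D₁, hD₁⟩ : ∃ D₁ : Matrix.GeneralLinearGroup (Fin 2) F,
      (D₁ : Matrix (Fin 2) (Fin 2) F) = !![d, 0; 0, 1] :=
    ⟨⟨!![d, 0; 0, 1], !![d⁻¹, 0; 0, 1], by
      rw [Matrix.mul_fin_two, Matrix.one_fin_two]; simp [hd0], by
      rw [Matrix.mul_fin_two, Matrix.one_fin_two]; simp [hd0]⟩, rfl⟩
  obtain ⟨D₂, hD₂⟩ : ∃ D₂ : Matrix.GeneralLinearGroup (Fin 2) F,
      (D₂ : Matrix (Fin 2) (Fin 2) F) = !![1, 0; 0, d] :=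
    ⟨⟨!![1, 0; 0, d], !![1, 0; 0, d⁻¹], by
      rw [Matrix.mul_fin_two, Matrix.one_fin_two]; simp [hd0], by
      rw [Matrix.mul_fin_two, Matrix.one_fin_two]; simp [hd0]⟩, rfl⟩
  constructor
  · have h : Matrix.SpecialLinearGroup.toGL (uM t) =
        ⁅D₁, Matrix.SpecialLinearGroup.toGL (uM s)⁆ := by
      rw [commutatorElement_def, eq_mul_inv_iff_mul_eq, eq_mul_inv_iff_mul_eq]
      apply Units.ext
      rw [Units.val_mul, Units.val_mul, Units.val_mul, hD₁]
      change (uM t).1 * (uM s).1 * !![d, 0; 0, 1] = !![d, 0; 0, 1] * (uM s).1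
      ext i j
      fin_cases i <;> fin_cases j <;> simp [uM, Matrix.mul_apply, Fin.sum_univ_two, hs] <;> ring
    rw [h, commutator_def]
    exact Subgroup.commutator_mem_commutator (Subgroup.mem_top _) (Subgroup.mem_top _)
  · have h : Matrix.SpecialLinearGroup.toGL (lM t) =
        ⁅D₂, Matrix.SpecialLinearGroup.toGL (lM s)⁆ := by
      rw [commutatorElement_def, eq_mul_inv_iff_mul_eq, eq_mul_inv_iff_mul_eq]
      apply Units.ext
      rw [Units.val_mul, Units.val_mul, Units.val_mul, hD₂]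
      change (lM t).1 * (lM s).1 * !![1, 0; 0, d] = !![1, 0; 0, d] * (lM s).1
      ext i j
      fin_cases i <;> fin_cases j <;> simp [lM, Matrix.mul_apply, Fin.sum_univ_two, hs] <;> ring
    rw [h, commutator_def]
    exact Subgroup.commutator_mem_commutator (Subgroup.mem_top _) (Subgroup.mem_top _)

theorem exists_ne_zero_one (F : Type*) [Field F] [Fintype F] (h : 3 ≤ Fintype.card F) :
    ∃ d : F, d ≠ 0 ∧ d ≠ 1 := by
  classical
  by_contra hno
  push Not at hno
  have hsub : (Finset.univ : Finset F) ⊆ {0, 1} := by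
    intro d _
    by_cases h0 : d = 0
    · simp [h0]
    · simp [hno d h0]
  have h1 := Finset.card_le_card hsub
  have h2 : ({0, 1} : Finset F).card ≤ 2 := Finset.card_le_two
  rw [Finset.card_univ] at h1
  omega

end Cfsg.Agent.Lib.helper18.LawEmb
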