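import Cfsg.Agent.Lib.helper18.LawEmb
import Mathlib

set_option autoImplicit false

namespace Cfsg.Agent.Lib.helper18.LawEmb

open Polynomial Cfsg.Agent.S2353
open scoped Matrix commutatorElement

/-! ### finite field facts for the unitary case -/

theorem exists_frob (F : Type*) [Field F] [Fintype F] (q : ℕ) (hq : Fintype.card F = q ^ 2) :
    ∃ σ : F →+* F, ∀ x, σ x = x ^ q := by
  obtain ⟨p, hp⟩ := CharP.exists F
  have := hp
  obtain ⟨n, hpr, hn⟩ := FiniteField.card F p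
  have hdvd : q ∣ p ^ (n : ℕ) := by
    rw [← hn, hq]
    exact dvd_pow_self q (by norm_num)
  obtain ⟨j, -, rfl⟩ := (Nat.dvd_prime_pow hpr).1 hdvd
  have : ExpChar F p := ExpChar.prime hpr
  exact ⟨iterateFrobenius F p j, fun x => by simp [iterateFrobenius_def]⟩

theorem exists_zeta (F : Type*) [Field F] [Fintype F] (q : ℕ) (hq : Fintype.card F = q ^ 2) :
    ∃ ζ : F, ζ ^ (q + 1) = -1 := by
  by_cases h2 : ringChar F = 2
  · have : CharP F 2 := ringChar.of_eq h2
    exact ⟨1, by rw [one_pow, CharTwo.neg_eq]⟩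
  · obtain ⟨a, ha⟩ := FiniteField.exists_nonsquare h2
    have ha0 : a ≠ 0 := by
      rintro rfl
      exact ha ⟨0, (mul_zero 0).symm⟩
    have h3 : a ^ (Fintype.card F / 2) = -1 := by
      rcases FiniteField.pow_dichotomy h2 ha0 with h | h
      · exact absurd ((FiniteField.isSquare_iff h2 ha0).2 h) ha
      · exact h
    have hodd : Fintype.card F % 2 = 1 := FiniteField.odd_card_of_char_ne_two h2
    have hqodd : q % 2 = 1 := by
      by_contra hne
      have h0 : q % 2 = 0 := by omega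
      have h4 : (q ^ 2) % 2 = 0 := by
        rw [Nat.pow_mod, h0]
      rw [hq] at hodd
      omega
    refine ⟨a ^ (q / 2), ?_⟩
    rw [← pow_mul, ← h3, hq]
    congr 1
    obtain ⟨k, rfl⟩ : ∃ k, q = 2 * k + 1 := ⟨q / 2, by omega⟩
    have e1 : (2 * k + 1) / 2 = k := by omega
    have e2 : (2 * k + 1) ^ 2 = 2 * (k * (2 * k + 1 + 1)) + 1 := by ring
    rw [e1, e2]
    generalize k * (2 * k + 1 + 1) = m
    omega

theorem exists_nonfixed (F : Type*) [Field F] [Fintype F] (q : ℕ)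
    (hq : Fintype.card F = q ^ 2) (hq2 : 2 ≤ q) : ∃ b : F, b ^ q ≠ b := by
  have h1 : ((X : F[X]) ^ q - X).natDegree < Fintype.card F := by
    rw [FiniteField.X_pow_card_sub_X_natDegree_eq F (by omega : 1 < q), hq]
    nlinarith
  obtain ⟨b, hb⟩ := Polynomial.exists_eval_ne_zero_of_natDegree_lt_card _
    (FiniteField.X_pow_card_sub_X_ne_zero F (by omega : 1 < q))
    (by rw [Cardinal.mk_fintype]; exact_mod_cast h1)
  refine ⟨b, fun h => hb ?_⟩
  simp [h]

theorem su_embed (F : Type*) [Field F] [Fintype F] (q : ℕ) (hq : Fintype.card F = q ^ 2)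
    (hq2 : 2 ≤ q) :
    ∃ (σ : F →+* F) (P P' : Matrix (Fin 2) (Fin 2) F) (_ : P' * P = 1), (∀ x, σ x = x ^ q) ∧
      ∀ t : F, t ^ q = t →
        ((uM t).1)ᵀ * (Pᵀ * P.map σ) * ((uM t).1).map σ = Pᵀ * P.map σ ∧
        ((lM t).1)ᵀ * (Pᵀ * P.map σ) * ((lM t).1).map σ = Pᵀ * P.map σ := by
  obtain ⟨σ, hσ⟩ := exists_frob F q hq
  obtain ⟨ζ, hζ⟩ := exists_zeta F q hq
  obtain ⟨b, hb⟩ := exists_nonfixed F q hq hq2
  have hq0 : q ≠ 0 := by omega
  have hz : ζ * ζ ^ q = -1 := by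
    rw [← pow_succ']
    exact hζ
  have hζ0 : ζ ≠ 0 := by
    rintro rfl
    simp at hz
  have hbq : (b ^ q) ^ q = b := by
    rw [← pow_mul, ← pow_two, ← hq]
    exact FiniteField.pow_card b
  obtain ⟨P, hP⟩ : ∃ P : Matrix (Fin 2) (Fin 2) F, P = !![1, b; ζ, ζ * b ^ q] := ⟨_, rfl⟩
  have hdet : IsUnit P.det := by
    rw [hP, Matrix.det_fin_two_of, isUnit_iff_ne_zero]
    intro h0
    apply hb
    have h1 : ζ * (b ^ q - b) = 0 := by linear_combination h0
    rcases mul_eq_zero.1 h1 with h | h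
    · exact absurd h hζ0
    · exact sub_eq_zero.1 h
  have hPσ : P.map σ = !![1, b ^ q; ζ ^ q, ζ ^ q * b] := by
    rw [hP]
    ext i j
    fin_cases i <;> fin_cases j <;> simp [hσ, mul_pow, hbq]
  have hPT : Pᵀ = !![1, ζ; b, ζ * b ^ q] := by
    rw [hP]
    ext i j
    fin_cases i <;> fin_cases j <;> rfl
  have hH : Pᵀ * P.map σ = !![0, b ^ q - b; -(b ^ q - b), 0] := by
    rw [hPσ, hPT, Matrix.mul_fin_two]
    have e00 : (1 : F) * 1 + ζ * ζ ^ q = 0 := by linear_combination hz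
    have e01 : (1 : F) * b ^ q + ζ * (ζ ^ q * b) = b ^ q - b := by linear_combination b * hz
    have e10 : b * 1 + ζ * b ^ q * ζ ^ q = -(b ^ q - b) := by linear_combination (b ^ q) * hz
    have e11 : b * b ^ q + ζ * b ^ q * (ζ ^ q * b) = 0 := by
      linear_combination (b * b ^ q) * hz
    rw [e00, e01, e10, e11]
  refine ⟨σ, P, P⁻¹, Matrix.nonsing_inv_mul P hdet, hσ, ?_⟩
  intro t ht
  rw [hH]
  have hu : ((uM t).1).map σ = (uM t).1 := by
    ext i j
    fin_cases i <;> fin_cases j <;> simp [uM, hσ, ht, zero_pow hq0]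
  have hl : ((lM t).1).map σ = (lM t).1 := by
    ext i j
    fin_cases i <;> fin_cases j <;> simp [lM, hσ, ht, zero_pow hq0]
  rw [hu, hl]
  constructor
  · ext i j
    fin_cases i <;> fin_cases j <;> simp [uM, Matrix.mul_apply, Fin.sum_univ_two] <;> ring
  · ext i j
    fin_cases i <;> fin_cases j <;> simp [lM, Matrix.mul_apply, Fin.sum_univ_two] <;> ring

/-! ### the families -/

theorem sl_rank (w : FreeGroup ℕ) (N₁ : ℕ)
    (hN₁ : ∀ n : ℕ, N₁ ≤ n → ∃ f : ℕ → alternatingGroup (Fin n), FreeGroup.lift f w ≠ 1)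
    (F : Type*) [Field F] (n : ℕ)
    (hlaw : ∀ f : ℕ → Matrix.ProjectiveSpecialLinearGroup (Fin n) F, FreeGroup.lift f w = 1)
    (h4 : 4 ≤ n) : n < N₁ := by
  have hdet : ∀ x : alternatingGroup (Fin n),
      (((Matrix.permMatrixHom : Equiv.Perm (Fin n) →* Matrix (Fin n) (Fin n) F).comp
        (alternatingGroup (Fin n)).subtype) x).det = 1 := fun x => perm_det x
  exact rank_bound w N₁ hN₁ hlaw n (slLift _ hdet)
    (slLift_injective _ hdet (fun a b hab => Subtype.ext (perm_injective hab))) h4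

theorem sl_field (w : FreeGroup ℕ) (hw : w ≠ 1) (F : Type*) [Field F] [Fintype F] (n : ℕ)
    (hn : 2 ≤ n)
    (hlaw : ∀ f : ℕ → Matrix.ProjectiveSpecialLinearGroup (Fin n) F, FreeGroup.lift f w = 1) :
    Fintype.card F ≤ ((Phi ℤ w).1 1 0).natDegree := by
  have hi : Function.Injective (Fin.castLE hn) := Fin.castLE_injective hn
  have hdet : ∀ g : Matrix.SpecialLinearGroup (Fin 2) F,
      (((thetaU F (Fin.castLE hn) hi).comp (slCoe (Fin 2) F)) g).det = 1 := by
    intro g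
    change (thetaU F (Fin.castLE hn) hi g.1).det = 1
    rw [det_thetaU]
    exact g.2
  exact field_bound_type w hw hlaw F (slLift _ hdet)
    (slLift_injective _ hdet (fun a b hab => slCoe_injective (thetaU_injective _ hi hab)))

/-- hom from `GL` into the symplectic group, as a group hom -/
def rhoSpG (m : ℕ) (F : Type*) [Field F] :
    Matrix.GeneralLinearGroup (Fin m) F →* Matrix.symplecticGroup (Fin m) F :=
  MonoidHom.mk' (fun A => ⟨rho0 (Fin m) F A, rho0_mem_sp A⟩)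
    (fun a b => Subtype.ext (map_mul (rho0 (Fin m) F) a b))

theorem rhoSpG_injective (m : ℕ) (F : Type*) [Field F] : Function.Injective (rhoSpG m F) := by
  intro a b hab
  exact rho0_injective (congrArg Subtype.val hab)

theorem sp_rank (w : FreeGroup ℕ) (N₁ : ℕ)
    (hN₁ : ∀ n : ℕ, N₁ ≤ n → ∃ f : ℕ → alternatingGroup (Fin n), FreeGroup.lift f w ≠ 1)
    (F : Type*) [Field F] (m : ℕ)
    (hlaw : ∀ f : ℕ → Cfsg.PSp m F, FreeGroup.lift f w = 1) (h4 : 4 ≤ m) : m < N₁ :=
  rank_bound w N₁ hN₁ hlaw m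
    ((rhoSpG m F).comp
      ((Matrix.permMatrixHom : Equiv.Perm (Fin m) →* Matrix (Fin m) (Fin m) F).toHomUnits.comp
        (alternatingGroup (Fin m)).subtype))
    (fun a b hab => Subtype.ext
      (perm_injective (congrArg Units.val (rhoSpG_injective m F hab)))) h4

theorem sp_field (w : FreeGroup ℕ) (hw : w ≠ 1) (F : Type*) [Field F] [Fintype F] (m : ℕ)
    (hm : 2 ≤ m) (hlaw : ∀ f : ℕ → Cfsg.PSp m F, FreeGroup.lift f w = 1) :
    Fintype.card F ≤ ((Phi ℤ w).1 1 0).natDegree := by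
  have hi : Function.Injective (Fin.castLE hm) := Fin.castLE_injective hm
  exact field_bound_type w hw hlaw F
    ((rhoSpG m F).comp ((Units.map (thetaU F (Fin.castLE hm) hi)).comp
      Matrix.SpecialLinearGroup.toGL))
    (fun a b hab => Matrix.SpecialLinearGroup.toGL_injective
      (Units.map_injective (thetaU_injective _ hi) (rhoSpG_injective m F hab)))

theorem omega_rank (w : FreeGroup ℕ) (N₁ : ℕ)
    (hN₁ : ∀ n : ℕ, N₁ ≤ n → ∃ f : ℕ → alternatingGroup (Fin n), FreeGroup.lift f w ≠ 1)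
    {ι : Type} [Fintype ι] [DecidableEq ι] (F : Type*) [Field F] (Q : (ι → F) → F) (m : ℕ)
    (ρ : Matrix.GeneralLinearGroup (Fin m) F →* Cfsg.isometryGroup F Q)
    (hρ : Function.Injective ρ)
    (hlaw : ∀ f : ℕ → Cfsg.POmega F Q, FreeGroup.lift f w = 1) (h5 : 5 ≤ m) : m < N₁ :=
  rank_bound_comm w N₁ hN₁ hlaw m
    (ρ.comp
      ((Matrix.permMatrixHom : Equiv.Perm (Fin m) →* Matrix (Fin m) (Fin m) F).toHomUnits.comp
        (alternatingGroup (Fin m)).subtype))
    (fun a b hab => Subtype.ext (perm_injective (congrArg Units.val (hρ hab)))) h5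

theorem omega_field (w : FreeGroup ℕ) (hw : w ≠ 1) {ι : Type} [Fintype ι] [DecidableEq ι]
    (F : Type*) [Field F] [Fintype F] (Q : (ι → F) → F) (m : ℕ) (hm : 2 ≤ m)
    (ρ : Matrix.GeneralLinearGroup (Fin m) F →* Cfsg.isometryGroup F Q)
    (hρ : Function.Injective ρ)
    (hlaw : ∀ f : ℕ → Cfsg.POmega F Q, FreeGroup.lift f w = 1) :
    Fintype.card F ≤ max 2 ((Phi ℤ w).1 1 0).natDegree := by
  by_contra hcon
  have h3 : 3 ≤ Fintype.card F := by omega
  have hD : ((Phi F w).1 1 0).natDegree < Fintype.card F :=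
    lt_of_le_of_lt (pw_deg F w) (by omega)
  obtain ⟨d, hd0, hd1⟩ := exists_ne_zero_one F h3
  obtain ⟨c, hc⟩ := Polynomial.exists_eval_ne_zero_of_natDegree_lt_card _ (pw_ne_zero F w hw)
    (by rw [Cardinal.mk_fintype]; exact_mod_cast hD)
  have hi : Function.Injective (Fin.castLE hm) := Fin.castLE_injective hm
  obtain ⟨Φ₀, hΦ₀⟩ : ∃ Φ₀ : Matrix.GeneralLinearGroup (Fin 2) F →* Cfsg.isometryGroup F Q,
      Φ₀ = ρ.comp (Units.map (thetaU F (Fin.castLE hm) hi)) := ⟨_, rfl⟩
  have hinj : Function.Injective (Φ₀.comp Matrix.SpecialLinearGroup.toGL) := by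
    intro a b hab
    rw [hΦ₀] at hab
    exact Matrix.SpecialLinearGroup.toGL_injective
      (Units.map_injective (thetaU_injective _ hi) (hρ hab))
  exact field_sub w (commutator (Cfsg.isometryGroup F Q)) hlaw F
    (Φ₀.comp Matrix.SpecialLinearGroup.toGL) hinj (fun _ => True)
    (fun t _ => ⟨map_mem_commutator Φ₀ (unip_mem_comm d hd0 hd1 t).1,
      map_mem_commutator Φ₀ (unip_mem_comm d hd0 hd1 t).2⟩) c trivial (fun _ => trivial) hc

theorem su_rank (w : FreeGroup ℕ) (N₁ : ℕ)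
    (hN₁ : ∀ n : ℕ, N₁ ≤ n → ∃ f : ℕ → alternatingGroup (Fin n), FreeGroup.lift f w ≠ 1)
    (F : Type*) [Field F] (n q : ℕ)
    (hlaw : ∀ f : ℕ → Cfsg.PSU n F q, FreeGroup.lift f w = 1) (h4 : 4 ≤ n) : n < N₁ := by
  have hdet : ∀ x : alternatingGroup (Fin n),
      (((Matrix.permMatrixHom : Equiv.Perm (Fin n) →* Matrix (Fin n) (Fin n) F).comp
        (alternatingGroup (Fin n)).subtype) x).det = 1 := fun x => perm_det x
  have hmem : ∀ x : alternatingGroup (Fin n), slLift _ hdet x ∈ Cfsg.SU n F q := by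
    intro x
    rw [mem_SU_iff]
    intro u v
    change ∑ i, Matrix.mulVec
        ((Matrix.permMatrixHom : Equiv.Perm (Fin n) →* Matrix (Fin n) (Fin n) F) x.1) u i *
      (Matrix.mulVec
        ((Matrix.permMatrixHom : Equiv.Perm (Fin n) →* Matrix (Fin n) (Fin n) F) x.1) v i) ^ q = _
    rw [perm_mulVec, perm_mulVec]
    exact Equiv.sum_comp (x.1⁻¹ : Equiv.Perm (Fin n)) (fun i => u i * v i ^ q)
  exact rank_bound w N₁ hN₁ hlaw n ((slLift _ hdet).codRestrict _ hmem)
    (fun a b hab => slLift_injective _ hdet (fun a b hab => Subtype.ext (perm_injective hab))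
      (congrArg Subtype.val hab)) h4

theorem su_field (w : FreeGroup ℕ) (hw : w ≠ 1) (F : Type*) [Field F] [Fintype F] (n q : ℕ)
    (hq : Fintype.card F = q ^ 2) (hn : 2 ≤ n)
    (hlaw : ∀ f : ℕ → Cfsg.PSU n F q, FreeGroup.lift f w = 1) :
    q ≤ ((Phi ℤ w).1 1 0).natDegree + 1 := by
  by_contra hcon
  have hDq : ((Phi ℤ w).1 1 0).natDegree + 2 ≤ q := by omega
  have hq2 : 2 ≤ q := by omega
  obtain ⟨σ, P, P', h, hσ, hmem⟩ := su_embed F q hq hq2
  have hi : Function.Injective (Fin.castLE hn) := Fin.castLE_injective hn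
  have hdet : ∀ g : Matrix.SpecialLinearGroup (Fin 2) F,
      ((((thetaU F (Fin.castLE hn) hi).comp (theta P P' h)).comp (slCoe (Fin 2) F)) g).det = 1 := by
    intro g
    change (thetaU F (Fin.castLE hn) hi (theta P P' h g.1)).det = 1
    rw [det_thetaU, det_theta]
    exact g.2
  have hΦ : Function.Injective (slLift _ hdet) :=
    slLift_injective _ hdet (fun a b hab => slCoe_injective
      (theta_injective P P' h (thetaU_injective _ hi hab)))
  -- the polynomial
  have hne : (Phi F w).1 1 0 ≠ 0 := pw_ne_zero F w hw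
  have hdeg : ((Phi F w).1 1 0).natDegree ≤ ((Phi ℤ w).1 1 0).natDegree := pw_deg F w
  have hne' : Polynomial.expand F (q + 1) ((Phi F w).1 1 0) ≠ 0 :=
    fun h0 => hne ((Polynomial.expand_eq_zero (Nat.succ_pos q)).1 h0)
  have hdeg' : (Polynomial.expand F (q + 1) ((Phi F w).1 1 0)).natDegree < Fintype.card F := by
    rw [Polynomial.natDegree_expand, hq]
    have h1 : ((Phi F w).1 1 0).natDegree * (q + 1) ≤ ((Phi ℤ w).1 1 0).natDegree * (q + 1) :=
      Nat.mul_le_mul_right _ hdeg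
    nlinarith [Nat.mul_le_mul_right (q + 1) hDq]
  obtain ⟨b₀, hb₀⟩ := Polynomial.exists_eval_ne_zero_of_natDegree_lt_card _ hne'
    (by rw [Cardinal.mk_fintype]; exact_mod_cast hdeg')
  rw [Polynomial.expand_eval] at hb₀
  have hcq : (b₀ ^ (q + 1)) ^ q = b₀ ^ (q + 1) := by
    have hb := FiniteField.pow_card b₀
    rw [hq] at hb
    calc (b₀ ^ (q + 1)) ^ q = b₀ ^ (q ^ 2) * b₀ ^ q := by
          rw [← pow_mul, ← pow_add]
          congr 1
          ring
      _ = b₀ ^ (q + 1) := by rw [hb, ← pow_succ']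
  refine field_sub w (Cfsg.SU n F q) hlaw F (slLift _ hdet) hΦ (fun t => t ^ q = t) ?_
    (b₀ ^ (q + 1)) (one_pow q) ?_ hb₀
  · intro t ht
    constructor
    · rw [mem_SU_iff]
      intro u v
      exact thetaU_unitary _ hi q σ hσ _ (conj_unitary σ P P' h _ (hmem t ht).1) u v
    · rw [mem_SU_iff]
      intro u v
      exact thetaU_unitary _ hi q σ hσ _ (conj_unitary σ P P' h _ (hmem t ht).2) u v
  · intro k
    change ((b₀ ^ (q + 1)) ^ (k + 1)) ^ q = (b₀ ^ (q + 1)) ^ (k + 1)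
    rw [← pow_mul, mul_comm, pow_mul, hcq]

/-! ### cardinalities -/

theorem card_le_of_inj {G K M : Type*} [Group G] [Group K] [Finite M]
    (e : G ≃* K ⧸ Subgroup.center K) (j : K → M) (hj : Function.Injective j) :
    Nat.card G ≤ Nat.card M := by
  have : Finite K := Finite.of_injective j hj
  rw [Nat.card_congr e.toEquiv]
  exact (Nat.card_le_card_of_surjective _
    (QuotientGroup.mk'_surjective (Subgroup.center K))).trans (Nat.card_le_card_of_injective j hj)

theorem card_matrix_le (ι F : Type*) [Fintype ι] [Fintype F] (B S : ℕ) (hB0 : 0 < B)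
    (hB : Fintype.card F ≤ B) (hS : Fintype.card ι ≤ S) :
    Nat.card (Matrix ι ι F) ≤ (B ^ S) ^ S := by
  change Nat.card (ι → ι → F) ≤ _
  rw [Nat.card_fun, Nat.card_fun, Nat.card_eq_fintype_card, Nat.card_eq_fintype_card]
  calc (Fintype.card F ^ Fintype.card ι) ^ Fintype.card ι
      ≤ (B ^ Fintype.card ι) ^ Fintype.card ι :=
        Nat.pow_le_pow_left (Nat.pow_le_pow_left hB _) _
    _ ≤ (B ^ S) ^ Fintype.card ι := Nat.pow_le_pow_left (Nat.pow_le_pow_right hB0 hS) _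
    _ ≤ (B ^ S) ^ S := Nat.pow_le_pow_right (pow_pos hB0 S) hS

theorem omega_card {G : Type*} [Group G] {ι : Type} [Fintype ι] [DecidableEq ι]
    (F : Type*) [Field F] [Fintype F] (Q : (ι → F) → F) (e : G ≃* Cfsg.POmega F Q) (B S : ℕ)
    (hB0 : 0 < B) (hB : Fintype.card F ≤ B) (hS : Fintype.card ι ≤ S) :
    Nat.card G ≤ (B ^ S) ^ S :=
  (card_le_of_inj e
    (fun x : Cfsg.Omega F Q => ((x.1.1 : Matrix.GeneralLinearGroup ι F) : Matrix ι ι F))
    (fun a b hab => Subtype.ext (Subtype.ext (Units.ext hab)))).trans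
    (card_matrix_le ι F B S hB0 hB hS)

end Cfsg.Agent.Lib.helper18.LawEmb
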