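import Mathlib
import Cfsg.Agent.S2904

set_option autoImplicit false

namespace Cfsg.Agent.Lib.helper18.PrimPart

open Polynomial Cfsg.Agent.S2904

/-! ### A lower bound for the totient: `n ≤ 2 φ(n)²` -/

lemma tot_prime_pow_odd (p k : ℕ) (hp : p.Prime) (hp2 : p ≠ 2) (hk : 0 < k) :
    p ^ k ≤ (p ^ k).totient ^ 2 := by
  rw [Nat.totient_prime_pow hp hk]
  have hp3 : 3 ≤ p := by have := hp.two_le; omega
  obtain ⟨j, rfl⟩ : ∃ j, k = j + 1 := ⟨k - 1, by omega⟩
  simp only [Nat.add_sub_cancel]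
  have h1 : p ≤ (p - 1) ^ 2 := by
    obtain ⟨s, rfl⟩ : ∃ s, p = s + 3 := ⟨p - 3, by omega⟩
    have : s + 3 - 1 = s + 2 := by omega
    rw [this]; nlinarith
  have h2 : p ^ j ≤ (p ^ j) ^ 2 := by
    have : 1 ≤ p ^ j := Nat.one_le_pow _ _ (by omega)
    nlinarith
  calc p ^ (j + 1) = p ^ j * p := pow_succ p j
    _ ≤ (p ^ j) ^ 2 * (p - 1) ^ 2 := Nat.mul_le_mul h2 h1
    _ = (p ^ j * (p - 1)) ^ 2 := by ring

lemma tot_two_pow (k : ℕ) (hk : 0 < k) : 2 ^ k ≤ 2 * (2 ^ k).totient ^ 2 := by
  rw [Nat.totient_prime_pow Nat.prime_two hk]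
  obtain ⟨j, rfl⟩ : ∃ j, k = j + 1 := ⟨k - 1, by omega⟩
  simp only [Nat.add_sub_cancel]
  have h1 : 1 ≤ 2 ^ j := Nat.one_le_pow _ _ (by omega)
  have h2 : 2 ^ j ≤ (2 ^ j) ^ 2 := by nlinarith
  have h3 : (2 : ℕ) - 1 = 1 := rfl
  rw [h3, mul_one, pow_succ]
  nlinarith

lemma tot_bound (n : ℕ) : (Odd n → n ≤ n.totient ^ 2) ∧ n ≤ 2 * n.totient ^ 2 := by
  induction n using Nat.recOnPosPrimePosCoprime with
  | prime_pow p k hp hk =>
    by_cases h2 : p = 2
    · subst h2
      refine ⟨fun ho => ?_, tot_two_pow k hk⟩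
      exfalso
      have : Even (2 ^ k) := (Nat.even_pow.mpr ⟨even_two, hk.ne'⟩)
      exact (Nat.not_odd_iff_even.mpr this) ho
    · have := tot_prime_pow_odd p k hp h2 hk
      exact ⟨fun _ => this, le_trans this (Nat.le_mul_of_pos_left _ (by norm_num))⟩
  | zero => exact ⟨fun h => absurd h (by decide), by simp⟩
  | one => exact ⟨fun _ => by simp, by simp⟩
  | coprime a b ha hb hab iha ihb =>
    rw [Nat.totient_mul hab]
    refine ⟨fun ho => ?_, ?_⟩
    · rw [Nat.odd_mul] at ho
      have h1 := iha.1 ho.1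
      have h2 := ihb.1 ho.2
      calc a * b ≤ a.totient ^ 2 * b.totient ^ 2 := Nat.mul_le_mul h1 h2
        _ = (a.totient * b.totient) ^ 2 := by ring
    · rcases Nat.even_or_odd a with hae | hao
      · have hbo : Odd b := by
          by_contra hb'
          rw [Nat.not_odd_iff_even] at hb'
          have h2 : 2 ∣ Nat.gcd a b := Nat.dvd_gcd hae.two_dvd hb'.two_dvd
          rw [hab] at h2
          omega
        have h1 := iha.2
        have h2 := ihb.1 hbo
        calc a * b ≤ (2 * a.totient ^ 2) * b.totient ^ 2 := Nat.mul_le_mul h1 h2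
          _ = 2 * (a.totient * b.totient) ^ 2 := by ring
      · have h1 := iha.1 hao
        have h2 := ihb.2
        calc a * b ≤ a.totient ^ 2 * (2 * b.totient ^ 2) := Nat.mul_le_mul h1 h2
          _ = 2 * (a.totient * b.totient) ^ 2 := by ring

/-! ### `x ^ φ(n) ≤ 4 Φ_n(x)` for real `x ≥ 2` -/

/-- the correction factor `∏_{d ∣ n} (1 - x^{-d})` -/
noncomputable def Lf (n : ℕ) (x : ℝ) : ℝ := ∏ d ∈ n.divisors, (1 - (x ^ d)⁻¹)

lemma fac_bounds (x : ℝ) (hx : 2 ≤ x) (d : ℕ) (hd : 0 < d) :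
    1 / 2 ≤ 1 - (x ^ d)⁻¹ ∧ 1 - (x ^ d)⁻¹ ≤ 1 := by
  have h1 : (2 : ℝ) ≤ x ^ d := by
    calc (2 : ℝ) ≤ x := hx
      _ = x ^ 1 := (pow_one x).symm
      _ ≤ x ^ d := pow_le_pow_right₀ (by linarith) hd
  have h2 : (x ^ d)⁻¹ ≤ 1 / 2 := by
    rw [inv_le_comm₀ (by linarith) (by norm_num)]
    simpa using h1
  have h3 : 0 ≤ (x ^ d)⁻¹ := inv_nonneg.mpr (by linarith)
  constructor <;> linarith

lemma Lf_pos (n : ℕ) (x : ℝ) (hx : 2 ≤ x) : 0 < Lf n x := by
  apply Finset.prod_pos
  intro d hd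
  have := (fac_bounds x hx d (Nat.pos_of_mem_divisors hd)).1
  linarith

lemma prod_two (k : ℕ) (hk : 1 ≤ k) :
    (1 / 4 : ℝ) * (1 + 2 * ((2 : ℝ) ^ k)⁻¹) ≤ ∏ d ∈ Finset.Icc 1 k, (1 - ((2 : ℝ) ^ d)⁻¹) := by
  induction k, hk using Nat.le_induction with
  | base => norm_num
  | succ k hk ih =>
    rw [Finset.prod_Icc_succ_top (by omega)]
    have hy : 0 < ((2 : ℝ) ^ k)⁻¹ := by positivity
    have hy2 : ((2 : ℝ) ^ k)⁻¹ ≤ 1 / 2 := by
      have h2 : (2 : ℝ) ≤ 2 ^ k := by
        calc (2 : ℝ) = 2 ^ 1 := by norm_num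
          _ ≤ 2 ^ k := pow_le_pow_right₀ (by norm_num) hk
      rw [inv_le_comm₀ (by positivity) (by norm_num)]
      simpa using h2
    have e : ((2 : ℝ) ^ (k + 1))⁻¹ = ((2 : ℝ) ^ k)⁻¹ / 2 := by
      rw [pow_succ]; field_simp
    rw [e]
    generalize ((2 : ℝ) ^ k)⁻¹ = y at *
    have hfac : 0 ≤ 1 - y / 2 := by linarith
    calc (1 / 4 : ℝ) * (1 + 2 * (y / 2)) ≤ (1 / 4 * (1 + 2 * y)) * (1 - y / 2) := by
          nlinarith [mul_nonneg hy.le (by linarith : (0 : ℝ) ≤ 1 / 2 - y)]
      _ ≤ (∏ d ∈ Finset.Icc 1 k, (1 - ((2 : ℝ) ^ d)⁻¹)) * (1 - y / 2) :=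
          mul_le_mul_of_nonneg_right ih hfac

lemma Lf_ge (n : ℕ) (hn : 0 < n) (x : ℝ) (hx : 2 ≤ x) : (1 / 4 : ℝ) ≤ Lf n x := by
  have h1 : ∏ d ∈ n.divisors, (1 - ((2 : ℝ) ^ d)⁻¹) ≤ Lf n x := by
    apply Finset.prod_le_prod
    · intro d hd
      have := (fac_bounds 2 le_rfl d (Nat.pos_of_mem_divisors hd)).1
      linarith
    · intro d hd
      have h2 : (2 : ℝ) ^ d ≤ x ^ d := pow_le_pow_left₀ (by norm_num) hx d
      have h3 : (x ^ d)⁻¹ ≤ ((2 : ℝ) ^ d)⁻¹ := inv_anti₀ (by positivity) h2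
      linarith
  have h2 : ∏ d ∈ Finset.Icc 1 n, (1 - ((2 : ℝ) ^ d)⁻¹) ≤ ∏ d ∈ n.divisors, (1 - ((2 : ℝ) ^ d)⁻¹) := by
    have hsub : n.divisors ⊆ Finset.Icc 1 n := by
      intro d hd
      rw [Finset.mem_Icc]
      exact ⟨Nat.pos_of_mem_divisors hd, Nat.divisor_le hd⟩
    rw [← Finset.prod_sdiff hsub]
    have hA : ∏ d ∈ Finset.Icc 1 n \ n.divisors, (1 - ((2 : ℝ) ^ d)⁻¹) ≤ 1 := by
      apply Finset.prod_le_one
      · intro d hd
        have hd1 : 0 < d := by
          have := (Finset.mem_sdiff.mp hd).1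
          rw [Finset.mem_Icc] at this
          omega
        have := (fac_bounds 2 le_rfl d hd1).1
        linarith
      · intro d hd
        have hd1 : 0 < d := by
          have := (Finset.mem_sdiff.mp hd).1
          rw [Finset.mem_Icc] at this
          omega
        exact (fac_bounds 2 le_rfl d hd1).2
    have hB : 0 ≤ ∏ d ∈ n.divisors, (1 - ((2 : ℝ) ^ d)⁻¹) := by
      apply Finset.prod_nonneg
      intro d hd
      have := (fac_bounds 2 le_rfl d (Nat.pos_of_mem_divisors hd)).1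
      linarith
    calc _ ≤ 1 * ∏ d ∈ n.divisors, (1 - ((2 : ℝ) ^ d)⁻¹) := mul_le_mul_of_nonneg_right hA hB
      _ = _ := one_mul _
  have h3 := prod_two n hn
  have h4 : (0 : ℝ) ≤ 2 * ((2 : ℝ) ^ n)⁻¹ := by positivity
  linarith

lemma cyc_bounds (n : ℕ) (hn : 0 < n) : ∀ x : ℝ, 2 ≤ x →
    Lf n x * x ^ n.totient ≤ (cyclotomic n ℝ).eval x ∧
      (cyclotomic n ℝ).eval x * Lf n x ≤ x ^ n.totient := by
  induction n using Nat.strong_induction_on with
  | _ n ih =>
  intro x hx
  rcases Nat.lt_or_ge n 2 with h | h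
  · have h1 : n = 1 := by omega
    subst h1
    have hx0 : x ≠ 0 := by linarith
    simp only [Lf, Nat.divisors_one, Finset.prod_singleton, pow_one, Nat.totient_one,
      cyclotomic_one, eval_sub, eval_X, eval_one]
    have h1 : 0 ≤ x⁻¹ := inv_nonneg.mpr (by linarith)
    have h2 : x⁻¹ ≤ 1 := inv_le_one_of_one_le₀ (by linarith)
    have h3 : x⁻¹ * x = 1 := inv_mul_cancel₀ hx0
    constructor
    · nlinarith
    · nlinarith
  · have hpp : (n.minFac).Prime := Nat.minFac_prime (by omega)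
    obtain ⟨p, hp⟩ : ∃ p, p = n.minFac := ⟨_, rfl⟩
    rw [← hp] at hpp
    obtain ⟨m, hm⟩ : ∃ m, n = m * p :=
      ⟨n / p, by rw [hp]; exact (Nat.div_mul_cancel (Nat.minFac_dvd n)).symm⟩
    have hm0 : 0 < m := by
      rcases Nat.eq_zero_or_pos m with h0 | h0
      · subst h0; omega
      · exact h0
    have hmn : m < n := by
      rw [hm]
      have := hpp.two_le
      nlinarith
    have hxp : 2 ≤ x ^ p := by
      calc (2 : ℝ) ≤ x := hx
        _ = x ^ 1 := (pow_one x).symm
        _ ≤ x ^ p := pow_le_pow_right₀ (by linarith) hpp.one_le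
    obtain ⟨a1, a2⟩ := ih m hmn hm0 x hx
    obtain ⟨b1, b2⟩ := ih m hmn hm0 (x ^ p) hxp
    have hΦm : 0 < (cyclotomic m ℝ).eval x := cyclotomic_pos' m (by linarith)
    have hΦmp : 0 < (cyclotomic m ℝ).eval (x ^ p) := cyclotomic_pos' m (by linarith)
    have hLm := Lf_pos m x hx
    have hLmp := Lf_pos m (x ^ p) hxp
    have hxpos : 0 < x := by linarith
    have himg : ∏ d ∈ m.divisors.image (· * p), (1 - (x ^ d)⁻¹) = Lf m (x ^ p) := by
      rw [Finset.prod_image (fun a _ b _ hab => Nat.eq_of_mul_eq_mul_right hpp.pos hab)]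
      apply Finset.prod_congr rfl
      intro d _
      rw [← pow_mul, mul_comm]
    by_cases hdiv : p ∣ m
    · have hexp := cyclotomic_expand_eq_cyclotomic hpp hdiv ℝ
      have hev : (cyclotomic n ℝ).eval x = (cyclotomic m ℝ).eval (x ^ p) := by
        rw [hm, ← hexp, expand_eval]
      have htot : n.totient = p * m.totient := by
        rw [hm, mul_comm, Nat.totient_mul_of_prime_of_dvd hpp hdiv]
      have hLle : Lf n x ≤ Lf m (x ^ p) := by
        rw [← himg]
        have hsub : m.divisors.image (· * p) ⊆ n.divisors := by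
          intro d hd
          obtain ⟨c, hc, rfl⟩ := Finset.mem_image.mp hd
          rw [Nat.mem_divisors] at hc ⊢
          exact ⟨by rw [hm]; exact Nat.mul_dvd_mul_right hc.1 p, by omega⟩
        unfold Lf
        rw [← Finset.prod_sdiff hsub]
        have hA : ∏ d ∈ n.divisors \ m.divisors.image (· * p), (1 - (x ^ d)⁻¹) ≤ 1 := by
          apply Finset.prod_le_one
          · intro d hd
            have hd1 := Nat.pos_of_mem_divisors (Finset.mem_sdiff.mp hd).1
            have := (fac_bounds x hx d hd1).1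
            linarith
          · intro d hd
            have hd1 := Nat.pos_of_mem_divisors (Finset.mem_sdiff.mp hd).1
            exact (fac_bounds x hx d hd1).2
        have hB : 0 ≤ ∏ d ∈ m.divisors.image (· * p), (1 - (x ^ d)⁻¹) := by
          rw [himg]; exact hLmp.le
        calc _ ≤ 1 * ∏ d ∈ m.divisors.image (· * p), (1 - (x ^ d)⁻¹) :=
              mul_le_mul_of_nonneg_right hA hB
          _ = _ := one_mul _
      have hpow : x ^ n.totient = (x ^ p) ^ m.totient := by rw [htot, pow_mul]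
      rw [hev, hpow]
      constructor
      · calc Lf n x * (x ^ p) ^ m.totient ≤ Lf m (x ^ p) * (x ^ p) ^ m.totient :=
              mul_le_mul_of_nonneg_right hLle (by positivity)
          _ ≤ _ := b1
      · calc (cyclotomic m ℝ).eval (x ^ p) * Lf n x
              ≤ (cyclotomic m ℝ).eval (x ^ p) * Lf m (x ^ p) :=
              mul_le_mul_of_nonneg_left hLle hΦmp.le
          _ ≤ _ := b2
    · have hexp := cyclotomic_expand_eq_cyclotomic_mul hpp hdiv ℝ
      have hev : (cyclotomic n ℝ).eval x * (cyclotomic m ℝ).eval x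
          = (cyclotomic m ℝ).eval (x ^ p) := by
        rw [hm, ← eval_mul, ← hexp, expand_eval]
      have htot : n.totient = (p - 1) * m.totient := by
        rw [hm, mul_comm, Nat.totient_mul_of_prime_of_not_dvd hpp hdiv]
      have hL : Lf n x = Lf m x * Lf m (x ^ p) := by
        rw [← himg]
        unfold Lf
        have hdisj : Disjoint m.divisors (m.divisors.image (· * p)) := by
          rw [Finset.disjoint_left]
          intro d hd hd'
          obtain ⟨c, hc, rfl⟩ := Finset.mem_image.mp hd'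
          exact hdiv ((dvd_mul_left p c).trans (Nat.dvd_of_mem_divisors hd))
        have hun : n.divisors = m.divisors ∪ m.divisors.image (· * p) := by
          ext d
          rw [Finset.mem_union, Finset.mem_image]
          constructor
          · intro hd
            have hdn := Nat.dvd_of_mem_divisors hd
            by_cases hpd : p ∣ d
            · right
              obtain ⟨c, rfl⟩ := hpd
              refine ⟨c, ?_, mul_comm _ _⟩
              rw [Nat.mem_divisors]
              refine ⟨?_, by omega⟩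
              rw [hm, mul_comm p c] at hdn
              exact Nat.dvd_of_mul_dvd_mul_right hpp.pos hdn
            · left
              rw [Nat.mem_divisors]
              refine ⟨?_, by omega⟩
              rw [hm] at hdn
              exact Nat.Coprime.dvd_of_dvd_mul_right
                ((Nat.Prime.coprime_iff_not_dvd hpp).mpr hpd).symm hdn
          · rintro (hd | ⟨c, hc, rfl⟩)
            · rw [Nat.mem_divisors] at hd ⊢
              exact ⟨by rw [hm]; exact Dvd.dvd.mul_right hd.1 p, by omega⟩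
            · rw [Nat.mem_divisors] at hc ⊢
              exact ⟨by rw [hm]; exact Nat.mul_dvd_mul_right hc.1 p, by omega⟩
        rw [hun, Finset.prod_union hdisj]
      have hpow : x ^ (p * m.totient) = x ^ n.totient * x ^ m.totient := by
        rw [htot, ← pow_add]
        congr 1
        obtain ⟨s, hs⟩ : ∃ s, p = s + 1 := ⟨p - 1, by have := hpp.one_le; omega⟩
        rw [hs, Nat.add_sub_cancel]
        ring
      have hb1 : Lf m (x ^ p) * x ^ (p * m.totient) ≤ (cyclotomic m ℝ).eval (x ^ p) := by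
        rw [pow_mul]; exact b1
      have hb2 : (cyclotomic m ℝ).eval (x ^ p) * Lf m (x ^ p) ≤ x ^ (p * m.totient) := by
        rw [pow_mul]; exact b2
      have hApos : 0 < (cyclotomic n ℝ).eval x := cyclotomic_pos' n (by linarith)
      rw [hpow] at hb1 hb2
      have hX : 0 < x ^ n.totient := by positivity
      have hY : 0 < x ^ m.totient := by positivity
      rw [hL]
      constructor
      · have h1 : Lf m x * Lf m (x ^ p) * x ^ n.totient * (cyclotomic m ℝ).eval x
            ≤ (cyclotomic n ℝ).eval x * (cyclotomic m ℝ).eval x := by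
          calc Lf m x * Lf m (x ^ p) * x ^ n.totient * (cyclotomic m ℝ).eval x
              = (Lf m (x ^ p) * x ^ n.totient) * ((cyclotomic m ℝ).eval x * Lf m x) := by ring
            _ ≤ (Lf m (x ^ p) * x ^ n.totient) * x ^ m.totient :=
                mul_le_mul_of_nonneg_left a2 (mul_nonneg hLmp.le hX.le)
            _ = Lf m (x ^ p) * (x ^ n.totient * x ^ m.totient) := by ring
            _ ≤ (cyclotomic m ℝ).eval (x ^ p) := hb1
            _ = (cyclotomic n ℝ).eval x * (cyclotomic m ℝ).eval x := hev.symm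
        exact le_of_mul_le_mul_right h1 hΦm
      · have h1 : (cyclotomic n ℝ).eval x * (Lf m x * Lf m (x ^ p)) * (Lf m x * x ^ m.totient)
            ≤ x ^ n.totient * (Lf m x * x ^ m.totient) := by
          calc (cyclotomic n ℝ).eval x * (Lf m x * Lf m (x ^ p)) * (Lf m x * x ^ m.totient)
              = ((cyclotomic n ℝ).eval x * Lf m x * Lf m (x ^ p)) * (Lf m x * x ^ m.totient) := by
                ring
            _ ≤ ((cyclotomic n ℝ).eval x * Lf m x * Lf m (x ^ p)) * (cyclotomic m ℝ).eval x :=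
                mul_le_mul_of_nonneg_left a1
                  (mul_nonneg (mul_nonneg hApos.le hLm.le) hLmp.le)
            _ = Lf m x * ((cyclotomic m ℝ).eval (x ^ p) * Lf m (x ^ p)) := by rw [← hev]; ring
            _ ≤ Lf m x * (x ^ n.totient * x ^ m.totient) :=
                mul_le_mul_of_nonneg_left hb2 hLm.le
            _ = x ^ n.totient * (Lf m x * x ^ m.totient) := by ring
        exact le_of_mul_le_mul_right h1 (mul_pos hLm hY)

lemma four_cyc (n : ℕ) (hn : 0 < n) (q : ℕ) (hq : 2 ≤ q) :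
    (q : ℤ) ^ n.totient ≤ 4 * Ph n q := by
  have h1 := (cyc_bounds n hn (q : ℝ) (by exact_mod_cast hq)).1
  have h2 := Lf_ge n hn (q : ℝ) (by exact_mod_cast hq)
  have h3 : (cyclotomic n ℝ).eval (q : ℝ) = ((Ph n q : ℤ) : ℝ) := by
    have := cyclotomic.eval_apply (q : ℤ) n (Int.castRingHom ℝ)
    simpa [Ph] using this
  rw [h3] at h1
  have h4 : (0 : ℝ) ≤ (q : ℝ) ^ n.totient := by positivity
  have h5 : ((q : ℝ)) ^ n.totient ≤ 4 * ((Ph n q : ℤ) : ℝ) := by nlinarith
  exact_mod_cast h5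

/-! ### A kernel-computable table of the values `Φ_e(q)` -/

/-- `cycF q f e` is `Φ_e(q)` provided the fuel `f` is at least `e ≥ 1`. -/
def cycF (q : ℕ) : ℕ → ℕ → ℕ
  | 0, _ => 1
  | (f + 1), e => (q ^ e - 1) /
      (((List.range e).filter (fun d => decide (0 < d) && decide (d ∣ e))).map (cycF q f)).prod

lemma cycF_eq (q : ℕ) (hq : 2 ≤ q) :
    ∀ f e : ℕ, 0 < e → e ≤ f → ((cycF q f e : ℕ) : ℤ) = Ph e q := by
  intro f
  induction f with
  | zero => intro e h1 h2; omega
  | succ f ih =>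
    intro e he hef
    obtain ⟨l, hl⟩ : ∃ l, l = (List.range e).filter (fun d => decide (0 < d) && decide (d ∣ e)) :=
      ⟨_, rfl⟩
    have hnd : l.Nodup := by rw [hl]; exact List.nodup_range.filter _
    have hmem : ∀ d, d ∈ l ↔ (d < e ∧ 0 < d ∧ d ∣ e) := by
      intro d
      rw [hl]
      simp only [List.mem_filter, List.mem_range, Bool.and_eq_true, decide_eq_true_eq]
    have hfin : l.toFinset = e.properDivisors := by
      ext d
      rw [List.mem_toFinset, hmem, Nat.mem_properDivisors]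
      constructor
      · rintro ⟨h1, -, h3⟩; exact ⟨h3, h1⟩
      · rintro ⟨h1, h2⟩
        exact ⟨h2, Nat.pos_of_dvd_of_pos h1 he, h1⟩
    have hprod : (((l.map (cycF q f)).prod : ℕ) : ℤ) = ∏ d ∈ e.properDivisors, Ph d q := by
      rw [← hfin, List.prod_toFinset _ hnd, Nat.cast_list_prod, List.map_map]
      congr 1
      apply List.map_congr_left
      intro d hd
      rw [hmem] at hd
      exact ih d hd.2.1 (by omega)
    have hmain : Ph e q * ∏ d ∈ e.properDivisors, Ph d q = (q : ℤ) ^ e - 1 := by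
      have h := congrArg (eval (q : ℤ)) (prod_cyclotomic_eq_X_pow_sub_one he ℤ)
      rw [← Nat.insert_self_properDivisors he.ne',
        Finset.prod_insert Nat.self_notMem_properDivisors, eval_mul, eval_prod] at h
      simpa [Ph] using h
    have hpos := Ph_pos e q (by omega)
    obtain ⟨N, hN⟩ : ∃ N : ℕ, (N : ℤ) = Ph e q :=
      ⟨(Ph e q).toNat, Int.toNat_of_nonneg hpos.le⟩
    have h1 : 1 ≤ q ^ e := Nat.one_le_pow _ _ (by omega)
    have hnat : N * (l.map (cycF q f)).prod = q ^ e - 1 := by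
      have h2 : ((N * (l.map (cycF q f)).prod : ℕ) : ℤ) = ((q ^ e - 1 : ℕ) : ℤ) := by
        rw [Nat.cast_mul, hN, hprod, hmain, Nat.cast_sub h1]
        push_cast
        ring
      exact_mod_cast h2
    have hP : 0 < (l.map (cycF q f)).prod := by
      rcases Nat.eq_zero_or_pos (l.map (cycF q f)).prod with h0 | h0
      · rw [h0, mul_zero] at hnat
        have h2 : 2 ≤ q ^ e := by
          calc 2 ≤ q := hq
            _ = q ^ 1 := (pow_one q).symm
            _ ≤ q ^ e := Nat.pow_le_pow_right (by omega) he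
        omega
      · exact h0
    have hc : cycF q (f + 1) e = N := by
      show (q ^ e - 1) / (((List.range e).filter
        (fun d => decide (0 < d) && decide (d ∣ e))).map (cycF q f)).prod = N
      rw [← hl, ← hnat, Nat.mul_div_cancel _ hP]
    rw [hc, hN]

/-- a list-based totient, for kernel evaluation -/
def phi' (e : ℕ) : ℕ := ((List.range e).filter (fun k => decide (Nat.Coprime e k))).length

lemma phi'_eq (e : ℕ) : phi' e = e.totient := by
  rw [Nat.totient_eq_card_coprime]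
  rfl

def E23 : List ℕ :=
  [3, 4, 5, 6, 7, 8, 9, 10, 11, 12, 14, 15, 16, 18, 20, 21, 22, 24, 26, 28, 30, 36, 42]

def list13 : List (ℕ × ℕ) :=
  [(2, 6), (2, 4), (2, 10), (2, 12), (2, 18), (3, 4), (3, 6), (5, 6), (2, 3), (2, 8), (2, 20),
    (4, 3), (4, 6)]

def chk1 : Bool := (List.range 1059).all
  (fun e => decide (e < 3) || !(decide (2 ^ phi' e ≤ 12 * e ^ 2)) || decide (e ∈ E23))

set_option maxRecDepth 100000 in
theorem chk1_true : chk1 = true := by decide +kernel

def chk2 : Bool := E23.all (fun e => (List.range (4 * e + 1)).all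
  (fun q => decide (q < 2) || !(decide (q ^ phi' e ≤ 12 * e ^ 2)) || decide ((q, e) ∈ list13)
    || decide (3 * e + 1 ≤ cycF q e e / Nat.gcd (cycF q e e) e)))

set_option maxRecDepth 100000 in
theorem chk2_true : chk2 = true := by decide +kernel

lemma big_pow (t : ℕ) (ht : 24 ≤ t) : 48 * t ^ 4 < 2 ^ t := by
  induction t, ht using Nat.le_induction with
  | base => norm_num
  | succ t ht ih =>
    have h1 : 12 * (t + 1) ^ 2 ≤ 14 * t ^ 2 := by nlinarith
    have h2 := Nat.mul_le_mul h1 h1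
    rw [pow_succ 2 t]
    nlinarith [Nat.zero_le (t ^ 4)]

/-- **Primitive part bound.** Outside thirteen pairs, `q ^ e - 1` has a primitive divisor
`m ≥ 3 e + 1`. -/
theorem prim_part (q e : ℕ) (hq : 2 ≤ q) (he : 3 ≤ e) (hlist : (q, e) ∉ list13) :
    ∃ m : ℕ, m ∣ q ^ e - 1 ∧ (∀ i : ℕ, 1 ≤ i → i < e → Nat.Coprime m (q ^ i - 1)) ∧
      3 * e + 1 ≤ m := by
  have hpos := Ph_pos e q (by omega)
  obtain ⟨N, hN⟩ : ∃ N : ℕ, (N : ℤ) = Ph e q := ⟨(Ph e q).toNat, Int.toNat_of_nonneg hpos.le⟩
  have hNpos : 0 < N := by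
    have : (0 : ℤ) < (N : ℤ) := by rw [hN]; exact hpos
    exact_mod_cast this
  obtain ⟨g, hg⟩ : ∃ g, g = Nat.gcd N e := ⟨_, rfl⟩
  have hgN : g ∣ N := hg ▸ Nat.gcd_dvd_left N e
  have hge : g ∣ e := hg ▸ Nat.gcd_dvd_right N e
  have hgpos : 0 < g := hg ▸ Nat.gcd_pos_of_pos_left e hNpos
  obtain ⟨m, hm⟩ := hgN
  have hNdvd : N ∣ q ^ e - 1 := by
    have h1 : 1 ≤ q ^ e := Nat.one_le_pow _ _ (by omega)
    have h := Polynomial.eval_dvd (x := (q : ℤ)) (cyclotomic.dvd_X_pow_sub_one e ℤ)
    simp only [eval_sub, eval_pow, eval_X, eval_one] at h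
    have h' : ((N : ℕ) : ℤ) ∣ ((q ^ e - 1 : ℕ) : ℤ) := by
      rw [hN]; push_cast [h1]; exact h
    exact_mod_cast h'
  have hmN : m ∣ N := Dvd.intro_left g hm.symm
  refine ⟨m, hmN.trans hNdvd, ?_, ?_⟩
  · intro i hi1 hie
    apply Nat.coprime_of_dvd
    intro s hs hsm hsq
    have hsN : s ∣ N := hsm.trans hmN
    have hsΦ : (s : ℤ) ∣ Ph e q := by rw [← hN]; exact_mod_cast hsN
    by_cases hse : s ∣ e
    · have hsg : s ∣ g := hg ▸ Nat.dvd_gcd hsN hse
      have hsq2 : s ^ 2 ∣ N := by rw [hm, sq]; exact Nat.mul_dvd_mul hsg hsm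
      apply bad_sq e q s (by omega) he hs hsΦ hse
      rw [← hN]; exact_mod_cast hsq2
    · exact (good_prime e q s (by omega) hs hsΦ hse).2 i (by omega) hie hsq
  · by_contra hlt
    push Not at hlt
    have hU := four_cyc e (by omega) q hq
    rw [← hN] at hU
    have hU' : q ^ e.totient ≤ 4 * N := by exact_mod_cast hU
    have hNle : N ≤ e * (3 * e) := by
      rw [hm]
      exact Nat.mul_le_mul (Nat.le_of_dvd (by omega) hge) (by omega)
    have hqe : q ^ e.totient ≤ 12 * e ^ 2 := by nlinarith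
    have hT := (tot_bound e).2
    have htpos : 0 < e.totient := Nat.totient_pos.mpr (by omega)
    have h2pow : 2 ^ e.totient ≤ 12 * e ^ 2 := le_trans (Nat.pow_le_pow_left hq _) hqe
    have ht23 : e.totient ≤ 23 := by
      by_contra h24
      push Not at h24
      have h1 := big_pow e.totient (by omega)
      have h2 : 12 * e ^ 2 ≤ 48 * e.totient ^ 4 := by nlinarith
      omega
    have he1058 : e ≤ 1058 := by nlinarith
    have hE : e ∈ E23 := by
      have h := chk1_true
      rw [chk1, List.all_eq_true] at h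
      have h1 := h e (List.mem_range.mpr (by omega))
      simp only [Bool.or_eq_true, decide_eq_true_eq, Bool.not_eq_true',
        decide_eq_false_iff_not] at h1
      rw [phi'_eq] at h1
      rcases h1 with (h1 | h1) | h1
      · omega
      · exact absurd h2pow h1
      · exact h1
    have ht2 : 2 ≤ e.totient := by
      have h1 : e.totient ≠ 1 := by
        intro h1
        rw [Nat.totient_eq_one_iff] at h1
        omega
      omega
    have hq4 : q ≤ 4 * e := by
      by_contra hq4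
      push Not at hq4
      have h1 : (4 * e) ^ 2 < q ^ 2 := Nat.pow_lt_pow_left hq4 (by norm_num)
      have h2 : q ^ 2 ≤ q ^ e.totient := Nat.pow_le_pow_right (by omega) ht2
      nlinarith
    have h2 := chk2_true
    rw [chk2, List.all_eq_true] at h2
    have h3 := h2 e hE
    rw [List.all_eq_true] at h3
    have h4 := h3 q (List.mem_range.mpr (by omega))
    simp only [Bool.or_eq_true, decide_eq_true_eq, Bool.not_eq_true',
      decide_eq_false_iff_not] at h4
    rw [phi'_eq] at h4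
    have hcyc : cycF q e e = N := by
      have h5 := cycF_eq q hq e e (by omega) le_rfl
      rw [← hN] at h5
      exact_mod_cast h5
    rw [hcyc] at h4
    rcases h4 with ((h4 | h4) | h4) | h4
    · omega
    · exact h4 hqe
    · exact hlist h4
    · have h5 : N / Nat.gcd N e = m := by rw [← hg, hm, Nat.mul_div_cancel_left _ hgpos]
      omega

/-! ### Primitive prime divisors are `≡ 1` modulo the exponent -/

lemma dvd_pow_sub_one_iff (p q k : ℕ) (hq : 0 < q) :
    p ∣ q ^ k - 1 ↔ ((q : ZMod p)) ^ k = 1 := by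
  have h1 : 1 ≤ q ^ k := Nat.one_le_pow _ _ hq
  rw [← ZMod.natCast_eq_zero_iff, Nat.cast_sub h1, Nat.cast_pow, Nat.cast_one, sub_eq_zero]

lemma ppd_mod (p q n : ℕ) (hp : p.Prime) (hq : 0 < q) (hn : 0 < n) (h1 : p ∣ q ^ n - 1)
    (h2 : ∀ i : ℕ, 1 ≤ i → i < n → ¬ p ∣ q ^ i - 1) : n ∣ p - 1 := by
  have : Fact p.Prime := ⟨hp⟩
  have ho : orderOf (q : ZMod p) = n := by
    rw [orderOf_eq_iff hn]
    refine ⟨(dvd_pow_sub_one_iff p q n hq).mp h1, fun m hm hm0 hpow => ?_⟩
    exact h2 m hm0 hm ((dvd_pow_sub_one_iff p q m hq).mpr hpow)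
  have hq0 : (q : ZMod p) ≠ 0 := by
    intro h0
    have h3 := (dvd_pow_sub_one_iff p q n hq).mp h1
    rw [h0, zero_pow hn.ne'] at h3
    exact zero_ne_one h3
  rw [← ho]
  exact ZMod.orderOf_dvd_card_sub_one hq0

/-- a bound for primitive divisors from a divisibility certificate -/
lemma pp_le (q e P : ℕ) (hP : 0 < P)
    (hdiv : q ^ e - 1 ∣ P * (((List.range e).filter (fun i => decide (0 < i))).map
      (fun i => q ^ i - 1)).prod) :
    ∀ m : ℕ, m ∣ q ^ e - 1 → (∀ i : ℕ, 1 ≤ i → i < e → Nat.Coprime m (q ^ i - 1)) → m ≤ P := by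
  intro m hm hco
  have hc : Nat.Coprime m (((List.range e).filter (fun i => decide (0 < i))).map
      (fun i => q ^ i - 1)).prod := by
    apply Nat.Coprime.symm
    apply Nat.coprime_list_prod_left_iff.mpr
    intro n hn
    rw [List.mem_map] at hn
    obtain ⟨i, hi, rfl⟩ := hn
    rw [List.mem_filter, List.mem_range] at hi
    simp only [decide_eq_true_eq] at hi
    exact (hco i hi.2 hi.1).symm
  have h1 : m ∣ P := Nat.Coprime.dvd_of_dvd_mul_right hc (hm.trans hdiv)
  exact Nat.le_of_dvd hP h1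

end Cfsg.Agent.Lib.helper18.PrimPart
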